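import Cfsg.Agent.Lib.PSolvablePairs.Count
import Cfsg.Agent.Lib.CharTheory.Inflation

/-!
A simple group with abelian Sylow `p`-subgroup and fixed-point-free normalizer action cannot have
all pairs of elements of order `p` generating `p`-solvable subgroups, by the shape of the
principal block.
-/

set_option autoImplicit false
set_option linter.style.haveILetI false
set_option linter.unusedSectionVars false

namespace CfsgLib.PSolvablePairs

open Cfsg CfsgLib.CharTheory CfsgLib.Blocks CfsgLib.BrauerCharacters Finset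
open CfsgLib.BlockSections.Exceptional
open scoped ComplexConjugate

variable {G : Type*} [Group G] [Fintype G] {p : ℕ} [hp : Fact p.Prime] {P : Sylow p G} {m : ℕ}
  {M : Ideal AlgInt} [M.IsPrime]

theorem eq_trivIrr_of_kernel [IsSimpleGroup G] (hG : ¬ IsMulCommutative G) {χ : IrrCharacter G}
    {y : G} (hy : y ≠ 1) (h : (χ : G → ℂ) y = (χ : G → ℂ) 1) : χ = trivIrr G := by
  classical
  obtain ⟨K, hKn, hK, -⟩ := exists_kernel (IsIrrCharacter.isCharacter χ.2)
  have hKtop : K = ⊤ := by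
    rcases IsSimpleGroup.eq_bot_or_eq_top_of_normal K hKn with h' | h'
    · exact absurd (by simpa [h'] using (hK y).2 h) hy
    · exact h'
  have hconst : ∀ g, (χ : G → ℂ) g = (χ : G → ℂ) 1 := fun g => (hK g).1 (hKtop ▸ Subgroup.mem_top g)
  by_contra hne
  have h0 := classInner_eq_zero_of_ne χ.2 (trivIrr G).2 (fun e => hne (Subtype.ext e))
  rw [classInner, sum_congr rfl (g := fun _ => (χ : G → ℂ) 1) (fun g _ => by
    rw [hconst g, trivIrr_apply, map_one, mul_one]), sum_const, card_univ, nsmul_eq_mul,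
    ← mul_assoc, Nat.card_eq_fintype_card, inv_mul_cancel₀ (Nat.cast_ne_zero.2 Fintype.card_ne_zero),
    one_mul] at h0
  exact apply_one_ne_zero_of_isIrr χ.2 h0

theorem sum_sq_T (hF : IsFrobSylow P m) (hM : IsPModular p M) (T : IrrCharacter G → ℤ)
    (hT : ∀ χ ∈ principalBlock M G, ∑ y ∈ ordIn P, (χ : G → ℂ) y = (T χ : ℂ)) :
    ∑ χ ∈ blockFinset (principalBlock M G), (T χ : ℝ) ^ 2 =
      ((ordIn P).card : ℝ) * m * (Nat.card (P : Subgroup G) : ℝ) := by
  classical
  apply Complex.ofReal_injective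
  push_cast
  have h1 : ∀ χ ∈ blockFinset (principalBlock M G), (T χ : ℂ) ^ 2 =
      ∑ x ∈ ordIn P, ∑ y ∈ ordIn P, (χ : G → ℂ) x * conj ((χ : G → ℂ) y) := by
    intro χ hχ
    rw [← sum_mul_sum, ← map_sum, hT χ (mem_blockFinset.1 hχ), map_intCast, pow_two]
  rw [sum_congr rfl h1, sum_comm, sum_congr rfl fun x _ => sum_comm]
  have hne : ∀ y ∈ ordIn P, y ≠ 1 := fun y hy h => by
    have := mem_ordIn.1 hy
    rw [h, Subgroup.coe_one, orderOf_one] at this
    exact hp.out.one_lt.ne this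
  rw [sum_congr rfl fun x hx => sum_congr rfl fun y hy => sum_mul_conj_eq hF hM (hne x hx) (hne y hy)]
  simp only [← mul_sum]
  have h2 : ∀ x ∈ ordIn P, ∑ y ∈ ordIn P, ∑ α : autP P,
      (if (α : MulAut (P : Subgroup G)) x = y then (1 : ℂ) else 0) = (m : ℂ) := by
    intro x hx
    rw [sum_comm, sum_congr rfl fun α _ => sum_ite_eq (ordIn P) _ _, sum_congr rfl fun α _ =>
      if_pos (mem_ordIn.2 ?_), sum_const, card_univ, ← Nat.card_eq_fintype_card, card_autP hF,
      nsmul_eq_mul, mul_one]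
    rw [Subgroup.orderOf_coe, MulEquiv.orderOf_eq, ← Subgroup.orderOf_coe]
    exact mem_ordIn.1 hx
  rw [sum_congr rfl h2, sum_const, nsmul_eq_mul]
  ring

/-- The case where all nontrivial elements of `P` are conjugate. -/
theorem false_rational [IsSimpleGroup G] (hG : ¬ IsMulCommutative G) (hF : IsFrobSylow P m)
    (hM : IsPModular p M) (hp3 : p ≠ 2) (hm : m + 1 = Nat.card (P : Subgroup G)) (hm1 : 1 ≤ m) {D : ℕ}
    (hD : ∀ u : G, orderOf u = p → Nat.card (Subgroup.centralizer ({u} : Set G)) = D)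
    (hpair : ∀ x y : G, orderOf x = p → orderOf y = p →
      IsPSolvable p ↥(Subgroup.closure ({x, y} : Set G))) : False := by
  classical
  haveI := hF.comm
  set q := Nat.card (P : Subgroup G) with hq
  obtain ⟨n, hn⟩ := IsPGroup.iff_card.1 P.2
  have hn0 : n ≠ 0 := by rintro rfl; rw [pow_zero] at hn; omega
  obtain ⟨y₀, hy₀⟩ : ∃ y₀ : (P : Subgroup G), orderOf y₀ = p :=
    exists_prime_orderOf_dvd_card' p (hn ▸ dvd_pow_self p hn0)
  have hy₀1 : y₀ ≠ 1 := fun h => by rw [h, orderOf_one] at hy₀; exact hp.out.one_lt.ne hy₀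
  -- all nontrivial elements are images of `y₀`
  have htrans : ∀ y : (P : Subgroup G), y ≠ 1 → ∃ α ∈ autP P, α y₀ = y := by
    intro y hy
    have hs : (univ : Finset ↥(autP P)).image (fun α : ↥(autP P) => (α : MulAut (P : Subgroup G)) y₀) =
        univ.erase 1 := by
      refine eq_of_subset_of_card_le (fun z hz => ?_) ?_
      · obtain ⟨α, -, rfl⟩ := mem_image.1 hz
        exact mem_erase.2 ⟨fun h => hy₀1 ((MulEquiv.map_eq_one_iff _).1 h), mem_univ _⟩
      · rw [card_image_of_injective _ (fun α β h => Subtype.ext (eq_of_autP_apply hF α.2 β.2 hy₀1 h)),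
          card_univ, card_erase_of_mem (mem_univ _), card_univ, ← Nat.card_eq_fintype_card,
          ← Nat.card_eq_fintype_card, card_autP hF, ← hq]
        omega
    have hmem : y ∈ univ.erase (1 : (P : Subgroup G)) := mem_erase.2 ⟨hy, mem_univ _⟩
    rw [← hs] at hmem
    obtain ⟨α, -, hα⟩ := mem_image.1 hmem
    exact ⟨α, α.2, hα⟩
  have hX : ordIn P = univ.erase (1 : (P : Subgroup G)) := by
    ext y
    rw [mem_ordIn, mem_erase, Subgroup.orderOf_coe]
    refine ⟨fun h => ⟨fun e => ?_, mem_univ _⟩, fun h => ?_⟩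
    · rw [e, orderOf_one] at h; exact hp.out.one_lt.ne h
    · obtain ⟨α, -, hα⟩ := htrans y h.1
      rw [← hα, MulEquiv.orderOf_eq, hy₀]
  have hk : (ordIn P).card = m := by
    rw [hX, card_erase_of_mem (mem_univ _), card_univ, ← Nat.card_eq_fintype_card, ← hq]; omega
  -- the integral value of a character
  have hval : ∀ χ : IrrCharacter G, ∃ a : ℤ, ∀ y : (P : Subgroup G), y ≠ 1 →
      (χ : G → ℂ) y = (a : ℂ) := by
    intro χ
    have hc : ∀ y : (P : Subgroup G), y ≠ 1 → (χ : G → ℂ) y = (χ : G → ℂ) y₀ := by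
      intro y hy
      obtain ⟨c, hc⟩ := isConj_iff.1 ((isConj_iff_autP hF).2 (htrans y hy))
      rw [← hc, IsIrrCharacter.isClassFunction χ.2 (y₀ : G) c]
    obtain ⟨z, hz⟩ := exists_mult P χ 1
    rw [classInner, sum_congr rfl (g := fun y : (P : Subgroup G) => (χ : G → ℂ) y) (fun y _ => by
      rw [MonoidHom.one_apply, Units.val_one, map_one, mul_one]),
      ← add_sum_erase _ _ (mem_univ (1 : (P : Subgroup G))), sum_congr rfl
        (fun y hy => hc y (mem_erase.1 hy).1), sum_const, nsmul_eq_mul, ← hX, hk, ← hq,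
      inv_mul_eq_iff_eq_mul₀ (Nat.cast_ne_zero.2 (by omega)), Subgroup.coe_one, (charDegree_spec χ).1] at hz
    have hrat : (χ : G → ℂ) y₀ =
        ((((q : ℚ) * (z : ℚ) - (charDegree (χ : G → ℂ) : ℚ)) / (m : ℚ) : ℚ) : ℂ) := by
      have hm0 : (m : ℂ) ≠ 0 := Nat.cast_ne_zero.2 (by omega)
      push_cast
      rw [eq_div_iff hm0]
      linear_combination hz
    have hint := IsCharacter.isIntegral (IsIrrCharacter.isCharacter χ.2) (y₀ : G)
    rw [hrat] at hint
    obtain ⟨a, ha⟩ := exists_int_of_isIntegral_ratCast hint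
    refine ⟨a, fun y hy => ?_⟩
    rw [hc y hy, hrat, ← ha]
    push_cast
    rfl
  choose a ha using hval
  have hT : ∀ χ ∈ principalBlock M G, ∑ y ∈ ordIn P, (χ : G → ℂ) y = (((m : ℤ) * a χ : ℤ) : ℂ) := by
    intro χ _
    rw [sum_congr rfl fun y hy => ha χ y (mem_erase.1 (hX ▸ hy)).1, sum_const, hk, nsmul_eq_mul]
    push_cast; ring
  have hbound := principal_bound hF hM hD hpair (fun χ => (m : ℤ) * a χ) hT hk
  have hsq := sum_sq_T hF hM (fun χ => (m : ℤ) * a χ) hT
  rw [hk, ← hq] at hsq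
  set B := blockFinset (principalBlock M G)
  have hmR : (0 : ℝ) < (m : ℝ) := by exact_mod_cast hm1
  have hsq' : ∑ χ ∈ B, (a χ : ℝ) ^ 2 = (q : ℝ) := by
    apply mul_left_cancel₀ (pow_ne_zero 2 hmR.ne')
    rw [mul_sum, show (m : ℝ) ^ 2 * q = (m : ℝ) * m * q by ring, ← hsq]
    exact sum_congr rfl fun χ _ => by push_cast; ring
  set d : IrrCharacter G → ℕ := fun χ => charDegree (χ : G → ℂ) with hd
  have hS : ((p - 2 : ℕ) : ℝ) * (q : ℝ) ≤ ((p - 1 : ℕ) : ℝ) * ∑ χ ∈ B, (a χ : ℝ) ^ 3 / (d χ : ℝ) := by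
    have h3 : (0 : ℝ) < (m : ℝ) ^ 3 := by positivity
    refine le_of_mul_le_mul_left ?_ h3
    refine le_trans (le_of_eq ?_) (hbound.trans (le_of_eq ?_))
    · ring
    · rw [← mul_assoc, mul_comm ((m : ℝ) ^ 3), mul_assoc, mul_sum (a := (m : ℝ) ^ 3)]
      congr 1
      exact sum_congr rfl fun χ _ => by push_cast; ring
  -- the trivial character and the others
  have ht : trivIrr G ∈ B := mem_blockFinset.2 (mem_blockOf_self (trivIrr G))
  have hat : a (trivIrr G) = 1 := by
    have h := ha (trivIrr G) y₀ hy₀1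
    rw [trivIrr_apply] at h
    exact_mod_cast h.symm
  have hdt : d (trivIrr G) = 1 := by
    have h := (charDegree_spec (trivIrr G)).1
    rw [trivIrr_apply] at h
    exact_mod_cast h.symm
  have hrest : ∑ χ ∈ B.erase (trivIrr G), (a χ : ℝ) ^ 2 = (q : ℝ) - 1 := by
    rw [← add_sum_erase _ _ ht, hat] at hsq'
    push_cast at hsq'
    linarith
  set c : ℝ := if q = 3 then 4 else 3 with hc
  have hq3 : 3 ≤ q := by
    have h1 := hp.out.two_le
    have : p ≤ q := by rw [hq, hn]; exact Nat.le_self_pow hn0 p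
    omega
  have hle : ∀ χ ∈ B.erase (trivIrr G), c * ((a χ : ℝ) ^ 3 / (d χ : ℝ)) ≤ (a χ : ℝ) ^ 2 := by
    intro χ hχ
    have hdpos : 0 < d χ := (charDegree_spec χ).2.1
    have hdR : (0 : ℝ) < (d χ : ℝ) := by exact_mod_cast hdpos
    have hcpos : (0 : ℝ) < c := by rw [hc]; split_ifs <;> norm_num
    rw [mul_div_assoc', div_le_iff₀ hdR]
    rcases le_or_gt (a χ) 0 with h | h
    · have : (a χ : ℝ) ≤ 0 := by exact_mod_cast h
      have h2 : (a χ : ℝ) ^ 3 ≤ 0 := by nlinarith [sq_nonneg (a χ : ℝ)]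
      nlinarith [mul_nonneg (sq_nonneg (a χ : ℝ)) hdR.le]
    · have hdvd := dvd_degree_sub hF hM χ (fun y hy => ha χ y hy)
      rw [← hq] at hdvd
      have hne : (d χ : ℤ) ≠ a χ := by
        intro e
        refine (mem_erase.1 hχ).1 (eq_trivIrr_of_kernel hG (y := (y₀ : G)) (by simpa using hy₀1) ?_)
        rw [ha χ y₀ hy₀1, (charDegree_spec χ).1, ← e]
        push_cast; rfl
      have hsqle : (a χ : ℝ) ^ 2 ≤ (q : ℝ) - 1 := hrest ▸
        single_le_sum (f := fun χ => (a χ : ℝ) ^ 2) (fun _ _ => sq_nonneg _) hχ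
      have hsqZ : (a χ) ^ 2 + 1 ≤ (q : ℤ) := by
        have : ((a χ : ℝ)) ^ 2 + 1 ≤ ((q : ℤ) : ℝ) := by push_cast; linarith
        exact_mod_cast this
      obtain ⟨l, hl⟩ := hdvd
      have hl' : (d χ : ℤ) = a χ + (q : ℤ) * l := by linarith
      have hl1 : 1 ≤ l := by
        rcases lt_trichotomy l 0 with h' | h' | h'
        · have : (q : ℤ) * l ≤ -(q : ℤ) := by nlinarith
          have : 0 < (d χ : ℤ) := by exact_mod_cast hdpos
          nlinarith [sq_nonneg (a χ - 1)]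
        · exact absurd (by rw [hl', h', mul_zero, add_zero]) hne
        · omega
      have hcle : c * (a χ : ℝ) ≤ (d χ : ℝ) := by
        rw [hc]
        split_ifs with h3
        · have ha1 : a χ = 1 := by
            have : (a χ) ^ 2 + 1 ≤ 3 := by rw [h3] at hsqZ; exact_mod_cast hsqZ
            nlinarith
          have : (4 : ℤ) ≤ (d χ : ℤ) := by rw [hl', ha1, h3]; push_cast; linarith
          rw [ha1]
          push_cast
          have : ((4 : ℤ) : ℝ) ≤ ((d χ : ℤ) : ℝ) := Int.cast_le.2 this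
          push_cast at this
          linarith
        · have h' : 3 * a χ ≤ (d χ : ℤ) := by rw [hl']; nlinarith [sq_nonneg (a χ - 1)]
          have : ((3 * a χ : ℤ) : ℝ) ≤ ((d χ : ℤ) : ℝ) := Int.cast_le.2 h'
          push_cast at this
          linarith
      nlinarith [mul_le_mul_of_nonneg_left hcle (sq_nonneg (a χ : ℝ))]
  obtain ⟨χ₁, hχ₁, hneg⟩ : ∃ χ ∈ B.erase (trivIrr G), a χ < 0 := by
    by_contra hcon
    push Not at hcon
    have h := sum_reg_mul_conj hF hM (g := (1 : G)) (by rw [orderOf_one]; exact hp.out.not_dvd_one)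
      (y := (y₀ : G)) y₀.2 (by simpa using hy₀1)
    have h' : ∑ χ ∈ B, ((d χ : ℤ) * a χ) = 0 := by
      apply Int.cast_injective (α := ℂ)
      push_cast
      rw [← h]
      exact sum_congr rfl fun χ _ => by rw [(charDegree_spec χ).1, ha χ y₀ hy₀1, map_intCast]
    rw [← add_sum_erase _ _ ht, hat, hdt] at h'
    have : 0 ≤ ∑ χ ∈ B.erase (trivIrr G), ((d χ : ℤ) * a χ) :=
      sum_nonneg fun χ hχ => mul_nonneg (Int.natCast_nonneg _) (hcon χ hχ)
    push_cast at h'
    linarith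
  have hlt : c * ∑ χ ∈ B, (a χ : ℝ) ^ 3 / (d χ : ℝ) < c + ((q : ℝ) - 1) := by
    rw [← add_sum_erase _ _ ht, hat, hdt, ← hrest, mul_add, mul_sum]
    push_cast
    rw [one_pow, div_one, mul_one]
    refine add_lt_add_right (sum_lt_sum hle ⟨χ₁, hχ₁, ?_⟩) c
    have hdR : (0 : ℝ) < (d χ₁ : ℝ) := by exact_mod_cast (charDegree_spec χ₁).2.1
    have hneg' : (a χ₁ : ℝ) < 0 := by exact_mod_cast hneg
    have hcpos : (0 : ℝ) < c := by rw [hc]; split_ifs <;> norm_num
    have hsp : 0 < (a χ₁ : ℝ) ^ 2 := by nlinarith [hneg']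
    have h3 : (a χ₁ : ℝ) ^ 3 / (d χ₁ : ℝ) < 0 := div_neg_of_neg_of_pos (by nlinarith) hdR
    nlinarith
  have h2p : 3 ≤ p := by have := hp.out.two_le; omega
  have hpR : (3 : ℝ) ≤ (p : ℝ) := by exact_mod_cast h2p
  have hqR : (3 : ℝ) ≤ (q : ℝ) := by exact_mod_cast hq3
  have hp1 : ((p - 1 : ℕ) : ℝ) = (p : ℝ) - 1 := by rw [Nat.cast_sub (by omega)]; simp
  have hp2' : ((p - 2 : ℕ) : ℝ) = (p : ℝ) - 2 := by rw [Nat.cast_sub (by omega)]; simp
  rw [hp1, hp2'] at hS
  rw [hc] at hlt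
  split_ifs at hlt with h3
  · have hp' : p = 3 := by
      have : p ∣ 3 := by rw [← h3, hq, hn]; exact dvd_pow_self p hn0
      exact (Nat.prime_dvd_prime_iff_eq hp.out Nat.prime_three).1 this
    have e1 : (q : ℝ) = 3 := by exact_mod_cast h3
    have e2 : (p : ℝ) = 3 := by exact_mod_cast hp'
    rw [e1] at hlt hS
    rw [e2] at hS
    linarith
  · have hq4 : (4 : ℝ) ≤ (q : ℝ) := by exact_mod_cast (by omega : 4 ≤ q)
    have hq5 : (5 : ℝ) ≤ (q : ℝ) := by
      rcases Nat.lt_or_ge q 5 with h' | h'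
      · exfalso
        have h4 : q = 4 := by omega
        have : p ∣ 2 ^ 2 := by rw [show (2 : ℕ) ^ 2 = q by omega, hq, hn]; exact dvd_pow_self p hn0
        exact hp3 ((Nat.prime_dvd_prime_iff_eq hp.out Nat.prime_two).1 (hp.out.dvd_of_dvd_pow this))
      · exact_mod_cast h'
    have h1 := mul_lt_mul_of_pos_left hlt (by linarith : (0 : ℝ) < (p : ℝ) - 1)
    have h2 := mul_le_mul_of_nonneg_left hq5 (by linarith : (0 : ℝ) ≤ 2 * (p : ℝ) - 5)
    linarith

/-- The orbit of a nontrivial character of `P`. -/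
theorem exists_orbit (hF : IsFrobSylow P m) {ψ : (P : Subgroup G) →* ℂˣ} (hψ : ψ ≠ 1) :
    ∃ O : Finset ((P : Subgroup G) →* ℂˣ), (∀ ψ', ψ' ∈ O ↔ NRel P ψ ψ') ∧ O.card = m := by
  classical
  refine ⟨(univ : Finset ↥(autP P)).image
    (fun α : ↥(autP P) => ψ.comp (α : MulAut (P : Subgroup G)).toMonoidHom), fun ψ' => ?_, ?_⟩
  · rw [mem_image]
    constructor
    · rintro ⟨α, -, rfl⟩
      exact ⟨(α : MulAut (P : Subgroup G))⁻¹, inv_mem α.2, MonoidHom.ext fun w =>
        congrArg ψ ((α : MulAut (P : Subgroup G)).apply_symm_apply w)⟩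
    · intro h
      obtain ⟨α, hα, he⟩ := nRel_symm hF h
      exact ⟨⟨α, hα⟩, mem_univ _, he⟩
  · rw [card_image_of_injective _ (fun α β h => Subtype.ext (autP_eq_of_nRel hF α.2 β.2 hψ h)),
      card_univ, ← Nat.card_eq_fintype_card, card_autP hF]

/-- The arithmetic of the exceptional rows whose orbit is nontrivial on the elements of order `p`. -/
theorem exceptional_arith {k m q : ℕ} {N d δ deg l : ℤ} (hmk : m ≤ k) (hm : 2 ≤ m) (hN : 2 ≤ N)
    (hq : N * (m : ℤ) + 1 = (q : ℤ)) (hδ : δ = 1 ∨ δ = -1)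
    (hd : (d - δ) ^ 2 + (N - 1) * d ^ 2 ≤ (m : ℤ)) (hdeg : 0 < deg)
    (hl : deg = d + δ * m + (q : ℤ) * l) :
    3 * ((k : ℤ) * d - δ * m) ≤ (k : ℤ) * deg := by
  have hmk' : (m : ℤ) ≤ (k : ℤ) := by exact_mod_cast hmk
  have hm' : (2 : ℤ) ≤ (m : ℤ) := by exact_mod_cast hm
  have hd2 : d ^ 2 ≤ (m : ℤ) := by nlinarith [sq_nonneg (d - δ), sq_nonneg d]
  have hdabs : d ≤ (m : ℤ) := by nlinarith [sq_nonneg (d - 1), sq_nonneg d]
  have hdabs' : -(m : ℤ) ≤ d := by nlinarith [sq_nonneg (d + 1), sq_nonneg d]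
  have hk0 : 0 ≤ (k : ℤ) := Int.natCast_nonneg k
  rcases hδ with rfl | rfl
  · rcases le_or_gt d 0 with h | h
    · nlinarith [mul_nonpos_of_nonneg_of_nonpos hk0 h]
    · have hl0 : 0 ≤ l := by
        by_contra hneg
        have : (q : ℤ) * l ≤ -(q : ℤ) := by nlinarith
        nlinarith
      have hdeg' : d + (m : ℤ) ≤ deg := by nlinarith
      have h2d : 2 * d ≤ (m : ℤ) := by
        rcases (by omega : d = 1 ∨ 2 ≤ d) with rfl | h'
        · linarith
        · nlinarith
      nlinarith [mul_le_mul_of_nonneg_left hdeg' hk0, mul_le_mul_of_nonneg_left h2d hk0]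
  · have hl1 : 1 ≤ l := by
      by_contra hneg
      have : (q : ℤ) * l ≤ 0 := by nlinarith
      linarith
    have hdeg' : (m : ℤ) + 1 + d ≤ deg := by nlinarith
    rcases lt_or_ge d 0 with h | h
    · nlinarith [mul_le_mul_of_nonneg_left (by omega : d ≤ -1) hk0]
    · rcases (by omega : d = 0 ∨ 1 ≤ d) with rfl | h'
      · nlinarith [mul_le_mul_of_nonneg_left hdeg' hk0]
      · have h2d : 2 * d + 2 ≤ (m : ℤ) := by nlinarith
        nlinarith [mul_le_mul_of_nonneg_left hdeg' hk0, mul_le_mul_of_nonneg_left h2d hk0]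

/-- The arithmetic of the exceptional rows whose orbit is trivial on the elements of order `p`. -/
theorem kernel_arith {m p q : ℕ} {d δ deg l : ℤ} (hmp : m + 1 ≤ p) (hqp : p ^ 2 ≤ q)
    (hδ : δ = 1 ∨ δ = -1) (hd : d ≤ (m : ℤ)) (hpos : 0 < d + δ * m)
    (hle : d + δ * (m : ℤ) ≤ deg) (hne : deg ≠ d + δ * m)
    (hl : deg = d + δ * m + (q : ℤ) * l) : 3 * (d + δ * (m : ℤ)) ≤ deg := by
  have h5 : (m : ℤ) + 1 ≤ (p : ℤ) := by exact_mod_cast hmp
  have h6 : ((p : ℤ)) ^ 2 ≤ (q : ℤ) := by exact_mod_cast hqp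
  have h4 : 4 * (m : ℤ) ≤ (q : ℤ) := by nlinarith [sq_nonneg ((p : ℤ) - 2)]
  have hq0 : 0 ≤ (q : ℤ) := Int.natCast_nonneg q
  have hl1 : 1 ≤ l := by
    rcases (by omega : 1 ≤ l ∨ l = 0 ∨ l ≤ -1) with h | h | h
    · exact h
    · exact absurd (by rw [hl, h, mul_zero, add_zero]) hne
    · have : (q : ℤ) * l ≤ -(q : ℤ) := by nlinarith
      have : (q : ℤ) = 0 := by linarith
      have : p = 0 := by
        have : (p : ℤ) ^ 2 ≤ 0 := by linarith
        exact_mod_cast (pow_eq_zero_iff two_ne_zero).1 (le_antisymm this (sq_nonneg _))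
      omega
  have hql : (q : ℤ) ≤ (q : ℤ) * l := le_mul_of_one_le_right hq0 hl1
  rcases hδ with rfl | rfl <;> linarith

set_option maxHeartbeats 800000 in
/-- The case with exceptional characters, `P` having a single subgroup of order `p`. -/
theorem false_exceptional [IsSimpleGroup G] (hG : ¬ IsMulCommutative G) (hF : IsFrobSylow P m)
    (hM : IsPModular p M) (hp3 : p ≠ 2) (hm1 : 1 < m) (hm2 : m + 1 < Nat.card (P : Subgroup G))
    {D : ℕ} (hD : ∀ u : G, orderOf u = p → Nat.card (Subgroup.centralizer ({u} : Set G)) = D)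
    (hpair : ∀ x y : G, orderOf x = p → orderOf y = p →
      IsPSolvable p ↥(Subgroup.closure ({x, y} : Set G)))
    (Ω : Subgroup (P : Subgroup G)) (hΩ : Nat.card Ω = p) (hΩm : ∀ y, y ∈ Ω ↔ y ^ p = 1) : False := by
  classical
  haveI := hF.comm
  haveI := Fintype.ofFinite Ω
  set q := Nat.card (P : Subgroup G) with hq
  obtain ⟨E⟩ := exists_excData hF hM hm1 hm2
  set k := p - 1 with hk
  have h3p : 3 ≤ p := by have := hp.out.two_le; omega
  have hX : ordIn P = ((univ : Finset Ω).map ⟨Subtype.val, Subtype.val_injective⟩).erase 1 := by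
    ext y
    rw [mem_ordIn, mem_erase, Finset.mem_map, Subgroup.orderOf_coe]
    constructor
    · intro h
      refine ⟨fun e => ?_, ⟨⟨y, (hΩm y).2 (orderOf_dvd_iff_pow_eq_one.1 (dvd_of_eq h))⟩, mem_univ _, rfl⟩⟩
      rw [e, orderOf_one] at h; exact hp.out.one_lt.ne h
    · rintro ⟨h1, ⟨w, hw⟩, -, rfl⟩
      exact orderOf_eq_prime ((hΩm w).1 hw) h1
  have hkX : (ordIn P).card = k := by
    rw [hX, card_erase_of_mem, card_map, card_univ, ← Nat.card_eq_fintype_card, hΩ]
    exact Finset.mem_map.2 ⟨1, mem_univ _, rfl⟩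
  have hsumX : ∀ f : ↥(P : Subgroup G) → ℂ, ∑ y ∈ ordIn P, f y = ∑ w : Ω, f w - f 1 := by
    intro f
    have h1 : (1 : (P : Subgroup G)) ∈ (univ : Finset Ω).map ⟨Subtype.val, Subtype.val_injective⟩ :=
      Finset.mem_map.2 ⟨1, mem_univ _, rfl⟩
    rw [hX, sum_erase_eq_sub h1, sum_map]
    rfl
  have hXne : ∀ y ∈ ordIn P, y ≠ 1 := fun y hy => (mem_erase.1 (hX ▸ hy)).1
  obtain ⟨y₁, hy₁⟩ := card_pos.1 (show 0 < (ordIn P).card by rw [hkX]; omega)
  have hy₁1 : (y₁ : G) ≠ 1 := by simpa using hXne y₁ hy₁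
  have hmk : m ≤ k := by
    rw [← card_autP hF, Nat.card_eq_fintype_card, ← hkX, ← card_univ,
      ← card_image_of_injective univ (f := fun α : ↥(autP P) => (α : MulAut (P : Subgroup G)) y₁)
        (fun α β h => Subtype.ext (eq_of_autP_apply hF α.2 β.2 (hXne y₁ hy₁) h))]
    refine card_le_card fun z hz => ?_
    obtain ⟨α, -, rfl⟩ := mem_image.1 hz
    rw [mem_ordIn, Subgroup.orderOf_coe, MulEquiv.orderOf_eq, ← Subgroup.orderOf_coe]
    exact mem_ordIn.1 hy₁
  have hnorm : (E.d - E.δ) ^ 2 + ((Nat.card E.Y : ℤ) - 1) * E.d ^ 2 ≤ (m : ℤ) := by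
    have h1 : 1 ≤ ∑ᶠ χ ∈ E.X, E.a χ ^ 2 := by
      rw [finsum_mem_eq_finite_toFinset_sum _ E.X.toFinite]
      refine le_trans ?_ (single_le_sum (f := fun χ => E.a χ ^ 2) (fun _ _ => sq_nonneg _)
        ((Set.Finite.mem_toFinset _).2 E.triv))
      rw [E.a_triv]; norm_num
    linarith [E.norm]
  have hN : (Nat.card E.Y : ℤ) * m + 1 = (q : ℤ) := by exact_mod_cast E.card_Y
  have hN2 : (2 : ℤ) ≤ (Nat.card E.Y : ℤ) := by exact_mod_cast E.two_le
  have hdeg0 : ∀ χ : IrrCharacter G, 0 < (charDegree (χ : G → ℂ) : ℤ) := fun χ => by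
    exact_mod_cast (charDegree_spec χ).2.1
  have key : ∀ χ ∈ principalBlock M G, ∃ T : ℤ, ∑ y ∈ ordIn P, (χ : G → ℂ) y = (T : ℂ) ∧
      (χ = trivIrr G → T = (k : ℤ)) ∧
      (χ ≠ trivIrr G → 3 * T ≤ (k : ℤ) * (charDegree (χ : G → ℂ) : ℤ)) := by
    intro χ hχ
    rw [E.union] at hχ
    rcases hχ with hχ | hχ
    · have hv : ∀ y : (P : Subgroup G), y ≠ 1 → (χ : G → ℂ) y = (E.a χ : ℂ) := fun y hy =>
        E.val_X χ hχ y y (isPPart_self hF hM y.2) y.2 (by simpa using hy)
      refine ⟨(k : ℤ) * E.a χ, ?_, ?_, ?_⟩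
      · rw [sum_congr rfl fun y hy => hv y (hXne y hy), sum_const, hkX, nsmul_eq_mul]
        push_cast; ring
      · rintro rfl; rw [E.a_triv, mul_one]
      · intro hne
        have hdvd := E.dvd χ hχ
        rw [← hq] at hdvd
        rcases le_or_gt (E.a χ) 0 with h | h
        · nlinarith [hdeg0 χ, mul_nonneg (Int.natCast_nonneg k) (hdeg0 χ).le]
        · obtain ⟨l, hl⟩ := hdvd
          have hsq : E.a χ ^ 2 ≤ (m : ℤ) := by
            have h1 : E.a χ ^ 2 + E.a (trivIrr G) ^ 2 ≤ ∑ᶠ ζ ∈ E.X, E.a ζ ^ 2 := by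
              rw [finsum_mem_eq_finite_toFinset_sum _ E.X.toFinite, ← sum_pair
                (f := fun ζ => E.a ζ ^ 2) hne]
              refine sum_le_sum_of_subset_of_nonneg ?_ (fun _ _ _ => sq_nonneg _)
              intro ζ hζ
              simp only [mem_insert, mem_singleton] at hζ
              rcases hζ with rfl | rfl
              · exact (Set.Finite.mem_toFinset _).2 hχ
              · exact (Set.Finite.mem_toFinset _).2 E.triv
            rw [E.a_triv] at h1
            nlinarith [E.norm, sq_nonneg (E.d - E.δ), sq_nonneg E.d]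
          have hneq : (charDegree (χ : G → ℂ) : ℤ) ≠ E.a χ := by
            intro e
            refine hne (eq_trivIrr_of_kernel hG hy₁1 ?_)
            rw [hv y₁ (hXne y₁ hy₁), (charDegree_spec χ).1, ← e]
            push_cast; rfl
          have hmq : 2 * (m : ℤ) + 1 ≤ (q : ℤ) := by nlinarith
          have hl1 : 1 ≤ l := by
            by_contra hneg
            rcases (by omega : l = 0 ∨ l ≤ -1) with rfl | h'
            · exact hneq (by linarith)
            · nlinarith [hdeg0 χ, sq_nonneg (E.a χ - 1)]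
          have h3 : 3 * E.a χ ≤ (charDegree (χ : G → ℂ) : ℤ) := by
            nlinarith [sq_nonneg (E.a χ - 1)]
          nlinarith [mul_le_mul_of_nonneg_left h3 (Int.natCast_nonneg k)]
    · obtain ⟨ψ, hψ, rfl⟩ := E.ζ_surj χ hχ
      obtain ⟨O, hO, hOc⟩ := exists_orbit hF hψ
      have hO1 : ∀ ψ' ∈ O, ψ' ≠ 1 := by
        intro ψ' h e
        obtain ⟨α, -, rfl⟩ := (hO ψ').1 h
        exact hψ (MonoidHom.ext fun w => DFunLike.congr_fun e (α w))
      have hset : {ψ' | NRel P ψ ψ'} = (↑O : Set ((P : Subgroup G) →* ℂˣ)) := by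
        ext ψ'; simp [hO]
      have hv : ∀ y : (P : Subgroup G), y ≠ 1 → (E.ζ ψ : G → ℂ) y =
          (E.d : ℂ) + (E.δ : ℂ) * ∑ ψ' ∈ O, ((ψ' y : ℂˣ) : ℂ) := by
        intro y hy
        have h := E.val_Y ψ hψ (y : G) y (isPPart_self hF hM y.2) (by simpa using hy)
        rw [hset, finsum_mem_coe_finset] at h
        exact h
      have hne : E.ζ ψ ≠ trivIrr G := fun e =>
        Set.disjoint_left.1 E.disj E.triv (e ▸ hχ)
      obtain ⟨z, hz⟩ := exists_mult P (E.ζ ψ) 1
      have hsum1 : ∑ y ∈ univ.erase (1 : (P : Subgroup G)), ∑ ψ' ∈ O, ((ψ' y : ℂˣ) : ℂ) = -(m : ℂ) := by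
        rw [sum_comm, sum_congr rfl (g := fun _ => (-1 : ℂ)) fun ψ' h => by
          rw [sum_erase_eq_sub (mem_univ _), sum_apply_hom, if_neg (hO1 ψ' h), map_one, Units.val_one,
            zero_sub], sum_const, hOc, nsmul_eq_mul, mul_neg, mul_one]
      rw [classInner, sum_congr rfl (g := fun y : (P : Subgroup G) => (E.ζ ψ : G → ℂ) y) (fun y _ => by
        rw [MonoidHom.one_apply, Units.val_one, map_one, mul_one]),
        ← add_sum_erase _ _ (mem_univ (1 : (P : Subgroup G))), sum_congr rfl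
          (fun y hy => hv y (mem_erase.1 hy).1), sum_add_distrib, ← mul_sum, hsum1, sum_const,
        nsmul_eq_mul, card_erase_of_mem (mem_univ _), card_univ, ← Nat.card_eq_fintype_card, ← hq,
        inv_mul_eq_iff_eq_mul₀ (Nat.cast_ne_zero.2 (by omega)), Subgroup.coe_one,
        (charDegree_spec (E.ζ ψ)).1, Nat.cast_sub (by omega)] at hz
      have hl : (charDegree (E.ζ ψ : G → ℂ) : ℤ) = E.d + E.δ * m + (q : ℤ) * (z - E.d) := by
        apply Int.cast_injective (α := ℂ)
        push_cast at hz ⊢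
        linear_combination hz
      have hstab : ∀ ψ' ∈ O, (∀ w : Ω, ψ' w = 1) ↔ ∀ w : Ω, ψ w = 1 := by
        intro ψ' h
        obtain ⟨α, -, rfl⟩ := (hO ψ').1 h
        constructor
        · intro h1 w
          exact h1 ⟨α w, (hΩm _).2 (by rw [← map_pow, (hΩm _).1 w.2, map_one])⟩
        · intro h1 w
          have hw : α.symm w ∈ Ω := (hΩm _).2 (by rw [← map_pow, (hΩm _).1 w.2, map_one])
          simpa using h1 ⟨α.symm w, hw⟩
      by_cases hker : ∀ w : Ω, ψ w = 1
      · have hker' : ∀ ψ' ∈ O, ∀ y ∈ ordIn P, ((ψ' y : ℂˣ) : ℂ) = 1 := by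
          intro ψ' h y hy
          have hyΩ : y ∈ Ω := (hΩm y).2 (orderOf_dvd_iff_pow_eq_one.1
            (dvd_of_eq ((Subgroup.orderOf_coe y).symm.trans (mem_ordIn.1 hy))))
          obtain ⟨α, hα, he⟩ := nRel_symm hF ((hO ψ').1 h)
          have h1 : ψ' y = 1 := by
            rw [← he]
            exact hker ⟨α y, (hΩm _).2 (by rw [← map_pow, (hΩm y).1 hyΩ, map_one])⟩
          rw [h1, Units.val_one]
        have hs : ∀ y ∈ ordIn P, (E.ζ ψ : G → ℂ) y = ((E.d + E.δ * m : ℤ) : ℂ) := by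
          intro y hy
          rw [hv y (hXne y hy), sum_congr rfl (g := fun _ => (1 : ℂ)) (fun ψ' h => hker' ψ' h y hy),
            sum_const, hOc, nsmul_eq_mul, mul_one]
          push_cast; rfl
        refine ⟨(k : ℤ) * (E.d + E.δ * m), ?_, fun e => absurd e hne, fun _ => ?_⟩
        · rw [sum_congr rfl hs, sum_const, hkX, nsmul_eq_mul]
          push_cast; ring
        · rcases le_or_gt (E.d + E.δ * (m : ℤ)) 0 with h | h
          · nlinarith [hdeg0 (E.ζ ψ), Int.natCast_nonneg k,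
              mul_nonneg (Int.natCast_nonneg k) (hdeg0 (E.ζ ψ)).le]
          · have hle : E.d + E.δ * (m : ℤ) ≤ (charDegree (E.ζ ψ : G → ℂ) : ℤ) := by
              have h1 := IsCharacter.norm_le (IsIrrCharacter.isCharacter (E.ζ ψ).2) (y₁ : G)
              rw [hs y₁ hy₁, (charDegree_spec (E.ζ ψ)).1, Complex.norm_intCast] at h1
              simp only [Complex.natCast_re] at h1
              exact_mod_cast (le_abs_self _).trans h1
            have hneq : (charDegree (E.ζ ψ : G → ℂ) : ℤ) ≠ E.d + E.δ * m := by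
              intro e
              refine hne (eq_trivIrr_of_kernel hG hy₁1 ?_)
              rw [hs y₁ hy₁, (charDegree_spec (E.ζ ψ)).1, ← e]
              push_cast; rfl
            have hqp : p ^ 2 ≤ q := by
              obtain ⟨n, hn⟩ := IsPGroup.iff_card.1 P.2
              have hn2 : 2 ≤ n := by
                by_contra hn2
                have hΩtop : Ω = ⊤ := by
                  apply Subgroup.eq_top_of_le_card
                  rw [hΩ, hn]
                  calc p ^ n ≤ p ^ 1 := Nat.pow_le_pow_right hp.out.pos (by omega)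
                    _ = p := pow_one p
                exact hψ (MonoidHom.ext fun w => hker ⟨w, hΩtop ▸ Subgroup.mem_top w⟩)
              rw [hq, hn]
              exact Nat.pow_le_pow_right hp.out.pos hn2
            have hdm : E.d ≤ (m : ℤ) := by
              have h1 : (1 : ℤ) * E.d ^ 2 ≤ ((Nat.card E.Y : ℤ) - 1) * E.d ^ 2 :=
                mul_le_mul_of_nonneg_right (by linarith) (sq_nonneg _)
              nlinarith [hnorm, sq_nonneg (E.d - E.δ), sq_nonneg (E.d - 1)]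
            have h3 : 3 * (E.d + E.δ * (m : ℤ)) ≤ (charDegree (E.ζ ψ : G → ℂ) : ℤ) :=
              kernel_arith (p := p) (by omega) hqp E.sign hdm h hle hneq hl
            nlinarith [mul_le_mul_of_nonneg_left h3 (Int.natCast_nonneg k)]
      · have hsum2 : ∀ ψ' ∈ O, ∑ y ∈ ordIn P, ((ψ' y : ℂˣ) : ℂ) = -1 := by
          intro ψ' h
          rw [hsumX (fun y => ((ψ' y : ℂˣ) : ℂ))]
          have hne' : ψ'.comp Ω.subtype ≠ 1 := fun e => hker ((hstab ψ' h).1 fun w => DFunLike.congr_fun e w)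
          have h0 := sum_apply_hom (ψ'.comp Ω.subtype)
          rw [if_neg hne'] at h0
          rw [show ∑ w : Ω, ((ψ' (w : (P : Subgroup G)) : ℂˣ) : ℂ) = 0 from h0, map_one, Units.val_one,
            zero_sub]
        refine ⟨(k : ℤ) * E.d - E.δ * m, ?_, fun e => absurd e hne, fun _ =>
          exceptional_arith hmk (by omega) hN2 hN E.sign hnorm (hdeg0 _) hl⟩
        rw [sum_congr rfl fun y hy => hv y (hXne y hy), sum_add_distrib, ← mul_sum, sum_comm,
          sum_congr rfl hsum2, sum_const, sum_const, hkX, hOc, nsmul_eq_mul, nsmul_eq_mul]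
        push_cast; ring
  choose! T hT hTt hTb using key
  have hbound := principal_bound hF hM hD hpair T hT hkX
  have hsq := sum_sq_T hF hM T hT
  rw [hkX, ← hq] at hsq
  set B := blockFinset (principalBlock M G)
  have ht : trivIrr G ∈ B := mem_blockFinset.2 (mem_blockOf_self (trivIrr G))
  have hTtriv := hTt _ (mem_blockFinset.1 ht) rfl
  have hdt : charDegree (trivIrr G : G → ℂ) = 1 := by
    have h := (charDegree_spec (trivIrr G)).1
    rw [trivIrr_apply] at h
    exact_mod_cast h.symm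
  have hle : ∀ χ ∈ B.erase (trivIrr G),
      3 * ((T χ : ℝ) ^ 3 / (charDegree (χ : G → ℂ) : ℝ)) ≤ (k : ℝ) * (T χ : ℝ) ^ 2 := by
    intro χ hχ
    have hdR : (0 : ℝ) < (charDegree (χ : G → ℂ) : ℝ) := by exact_mod_cast (charDegree_spec χ).2.1
    have h := hTb χ (mem_blockFinset.1 (mem_erase.1 hχ).2) (mem_erase.1 hχ).1
    have h' : ((3 * T χ : ℤ) : ℝ) ≤ (((k : ℤ) * (charDegree (χ : G → ℂ) : ℤ) : ℤ) : ℝ) := Int.cast_le.2 h
    push_cast at h'
    rw [mul_div_assoc', div_le_iff₀ hdR]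
    nlinarith [mul_le_mul_of_nonneg_left h' (sq_nonneg (T χ : ℝ))]
  have hs2 := sum_le_sum hle
  rw [← mul_sum, ← mul_sum] at hs2
  rw [← add_sum_erase _ _ ht, hTtriv] at hsq hbound
  rw [hdt] at hbound
  push_cast at hsq hbound
  rw [div_one] at hbound
  have hkR : (k : ℝ) = (p : ℝ) - 1 := by rw [hk, Nat.cast_sub (by omega)]; simp
  have hp2' : ((p - 2 : ℕ) : ℝ) = (p : ℝ) - 2 := by rw [Nat.cast_sub (by omega)]; simp
  rw [hp2', ← hk] at hbound
  have hq2 : 2 * m + 1 ≤ q := by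
    have := E.card_Y; rw [← hq] at this; have := E.two_le; nlinarith
  have hpq : p ≤ q := by
    rw [← hΩ, hq]
    exact Nat.le_of_dvd Nat.card_pos (Ω.card_subgroup_dvd_card)
  have hmR : (2 : ℝ) ≤ (m : ℝ) := by exact_mod_cast hm1
  have hqR : 2 * (m : ℝ) + 1 ≤ (q : ℝ) := by exact_mod_cast hq2
  have hpqR : (p : ℝ) ≤ (q : ℝ) := by exact_mod_cast hpq
  have hpR : (3 : ℝ) ≤ (p : ℝ) := by exact_mod_cast h3p
  have hfin : 2 * (k : ℝ) ^ 2 < (2 * (p : ℝ) - 5) * ((m : ℝ) * q) := by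
    rcases (by omega : p = 3 ∨ p = 4 ∨ 5 ≤ p) with h | h | h
    · have e : (p : ℝ) = 3 := by exact_mod_cast h
      rw [hkR, e]; nlinarith
    · exfalso; have := hp.out; rw [h] at this; norm_num at this
    · have h5 : (5 : ℝ) ≤ (p : ℝ) := by exact_mod_cast h
      rw [hkR]
      have : 2 * (p : ℝ) ≤ (m : ℝ) * q := by nlinarith
      nlinarith
  have hk0 : (0 : ℝ) < (k : ℝ) := by rw [hkR]; linarith
  rw [hkR] at hbound hs2 hsq hfin hk0
  nlinarith [mul_lt_mul_of_pos_left hfin (pow_pos hk0 2),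
    mul_le_mul_of_nonneg_left hs2 hk0.le]

end CfsgLib.PSolvablePairs
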