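import Mathlib
import Cfsg.Prelude.Def_Local
import Cfsg.Agent.Lib.Cores.PCore
import Cfsg.Agent.Lib.PSolvable.Basic
import Cfsg.Agent.Lib.PSolvable.HallHigman

/-!
Two elements of order `p` generating a `p`-solvable subgroup of a group with abelian Sylow
`p`-subgroups.
-/

set_option autoImplicit false

namespace CfsgLib.PSolvablePairs

open Cfsg

/-- Modulo the `p'`-core such a group is an abelian `p`-group. -/
theorem quotient_structure {H : Type*} [Group H] [Finite H] {p : ℕ} [Fact p.Prime]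
    (hs : IsPSolvable p H) (hab : ∀ R : Sylow p H, IsMulCommutative (R : Subgroup H))
    {x y : H} (hgen : Subgroup.closure ({x, y} : Set H) = ⊤) (hx : x ^ p = 1) (hy : y ^ p = 1) :
    IsPGroup p (H ⧸ pPrimeCore p H) ∧
      Commute (QuotientGroup.mk' (pPrimeCore p H) x) (QuotientGroup.mk' (pPrimeCore p H) y) := by
  set f := QuotientGroup.mk' (pPrimeCore p H) with hf
  have hfs : Function.Surjective f := QuotientGroup.mk'_surjective _
  have habQ : ∀ R : Sylow p (H ⧸ pPrimeCore p H), ∀ a ∈ (R : Subgroup (H ⧸ pPrimeCore p H)),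
      ∀ b ∈ (R : Subgroup (H ⧸ pPrimeCore p H)), a * b = b * a := by
    intro R
    obtain ⟨R₀, rfl⟩ := Sylow.mapSurjective_surjective hfs p R
    rintro _ ⟨a, ha, rfl⟩ _ ⟨b, hb, rfl⟩
    have h := congrArg Subtype.val ((hab R₀).is_comm.comm ⟨a, ha⟩ ⟨b, hb⟩)
    rw [← map_mul, ← map_mul]
    exact congrArg f h
  have hC := CfsgLib.PSolvable.centralizer_pCore_le (CfsgLib.PSolvable.isPSolvable_quotient hs _)
    (CfsgLib.Cores.pPrimeCore_quotient_pPrimeCore (G := H) p)
  have hmem : ∀ z : H, z ^ p = 1 → f z ∈ pCore p (H ⧸ pPrimeCore p H) := by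
    intro z hz
    apply hC
    rw [Subgroup.mem_centralizer_iff]
    intro a ha
    have hzp : IsPGroup p (Subgroup.zpowers (f z)) := by
      obtain ⟨k, -, hk⟩ := (Nat.dvd_prime_pow (Fact.out : p.Prime)).1
        (show orderOf (f z) ∣ p ^ 1 by
          rw [pow_one]; exact orderOf_dvd_of_pow_eq_one (by rw [← map_pow, hz, map_one]))
      exact IsPGroup.of_card (n := k) (by rw [Nat.card_zpowers, hk])
    have hn : (pCore p (H ⧸ pPrimeCore p H)).Normal := inferInstance
    have hp : IsPGroup p ↥(Subgroup.zpowers (f z) ⊔ pCore p (H ⧸ pPrimeCore p H)) :=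
      hzp.to_sup_of_normal_right (CfsgLib.Cores.isPGroup_pCore p _)
    obtain ⟨R, hR⟩ := hp.exists_le_sylow
    exact habQ R a (hR (Subgroup.mem_sup_right ha)) (f z) (hR (Subgroup.mem_sup_left (Subgroup.mem_zpowers _)))
  have htop : pCore p (H ⧸ pPrimeCore p H) = ⊤ := by
    rw [eq_top_iff, ← Subgroup.map_top_of_surjective f hfs, ← hgen, MonoidHom.map_closure,
      Subgroup.closure_le, Set.image_pair]
    rintro _ (rfl | rfl)
    · exact hmem x hx
    · exact hmem y hy
  have hP : IsPGroup p (H ⧸ pPrimeCore p H) := by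
    have h := CfsgLib.Cores.isPGroup_pCore p (H ⧸ pPrimeCore p H)
    rw [htop] at h
    exact h.of_equiv Subgroup.topEquiv
  refine ⟨hP, ?_⟩
  obtain ⟨R, hR⟩ := (hP.to_subgroup ⊤).exists_le_sylow
  exact habQ R _ (hR (Subgroup.mem_top _)) _ (hR (Subgroup.mem_top _))

variable {G : Type*} [Group G] [Finite G] {p : ℕ} [hp : Fact p.Prime]

theorem sylow_comm_of_subgroup (P : Sylow p G) (hab : IsMulCommutative (P : Subgroup G))
    (H : Subgroup G) (R : Sylow p H) : IsMulCommutative (R : Subgroup H) := by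
  obtain ⟨Q, hQ⟩ := ((R.2).map H.subtype).exists_le_sylow
  obtain ⟨g, hg⟩ := MulAction.exists_smul_eq G P Q
  refine ⟨⟨fun a b => ?_⟩⟩
  have hmem : ∀ c : (R : Subgroup H), g⁻¹ * ((c : H) : G) * g ∈ (P : Subgroup G) := by
    intro c
    have h1 : ((c : H) : G) ∈ (Q : Subgroup G) := hQ ⟨(c : H), c.2, rfl⟩
    rw [← hg, Sylow.coe_subgroup_smul] at h1
    obtain ⟨d, hd, hde⟩ := h1
    rw [← hde]
    simpa [mul_assoc] using show d ∈ (P : Subgroup G) from hd
  have h := congrArg Subtype.val (hab.is_comm.comm ⟨_, hmem a⟩ ⟨_, hmem b⟩)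
  apply Subtype.ext
  apply Subtype.ext
  have h' : g⁻¹ * (((a : H) : G) * ((b : H) : G)) * g = g⁻¹ * (((b : H) : G) * ((a : H) : G)) * g := by
    simpa [mul_assoc] using h
  simpa using h'

/-- The images in the largest `p`-quotient. -/
theorem exists_regular_criterion (P : Sylow p G) (hab : IsMulCommutative (P : Subgroup G)) {x y : G}
    (hx : orderOf x = p) (hy : orderOf y = p)
    (hs : IsPSolvable p ↥(Subgroup.closure ({x, y} : Set G))) :
    ¬ p ∣ orderOf ((x * y) ^ p) ∧
      ∀ i j : ℕ, i < p → j < p → ¬ p ∣ orderOf (x * y ^ i) → ¬ p ∣ orderOf (x * y ^ j) → i = j := by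
  set H := Subgroup.closure ({x, y} : Set G)
  set x' : H := ⟨x, Subgroup.subset_closure (Set.mem_insert x _)⟩
  set y' : H := ⟨y, Subgroup.subset_closure (Set.mem_insert_of_mem x rfl)⟩
  have hgen : Subgroup.closure ({x', y'} : Set H) = ⊤ := by
    apply Subgroup.map_injective H.subtype_injective
    rw [MonoidHom.map_closure, Set.image_pair, ← MonoidHom.range_eq_map, H.range_subtype]
    rfl
  have hxp : x' ^ p = 1 := Subtype.ext (by rw [← hx]; exact pow_orderOf_eq_one x)
  have hyp : y' ^ p = 1 := Subtype.ext (by rw [← hy]; exact pow_orderOf_eq_one y)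
  obtain ⟨hQ, hc⟩ := quotient_structure hs (sylow_comm_of_subgroup P hab H) hgen hxp hyp
  set f := QuotientGroup.mk' (pPrimeCore p H) with hf
  have hcore := hp.out.coprime_iff_not_dvd.1 (CfsgLib.Cores.card_pPrimeCore_coprime (G := H) p).symm
  have hker : ∀ z : H, f z = 1 ↔ ¬ p ∣ orderOf z := by
    intro z
    constructor
    · intro h hd
      apply hcore
      exact hd.trans (Subgroup.orderOf_dvd_natCard _ ((QuotientGroup.eq_one_iff z).1 h))
    · intro h
      rw [← orderOf_eq_one_iff]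
      obtain ⟨k, hk⟩ := IsPGroup.iff_orderOf.1 hQ (f z)
      exact Nat.eq_one_of_dvd_coprimes (((hp.out.coprime_iff_not_dvd).2 h).pow_left k).symm
        (orderOf_map_dvd f z) (dvd_of_eq hk)
  refine ⟨?_, ?_⟩
  · have h1 : f ((x' * y') ^ p) = 1 := by
      rw [map_pow, map_mul, hc.mul_pow, ← map_pow, ← map_pow, hxp, hyp, map_one, one_mul]
    have h2 := (hker _).1 h1
    rwa [← Subgroup.orderOf_coe] at h2
  · intro i j hi hj hri hrj
    have e : ∀ l, ¬ p ∣ orderOf (x * y ^ l) → f y' ^ l = (f x')⁻¹ := by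
      intro l hl
      have h1 : f (x' * y' ^ l) = 1 := (hker _).2 (by rw [← Subgroup.orderOf_coe]; exact hl)
      rw [map_mul, map_pow] at h1
      exact eq_inv_of_mul_eq_one_right h1
    have hord : orderOf (f y') = p := by
      refine orderOf_eq_prime (by rw [← map_pow, hyp, map_one]) fun h => ?_
      exact (hker _).1 h (by rw [← Subgroup.orderOf_coe, show ((y' : H) : G) = y from rfl, hy])
    have := (e i hri).trans (e j hrj).symm
    exact pow_injOn_Iio_orderOf (by rw [Set.mem_Iio, hord]; exact hi) (by rw [Set.mem_Iio, hord]; exact hj) this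

end CfsgLib.PSolvablePairs
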