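import Cfsg.Agent.Lib.BlockSections.Exceptional
import Cfsg.Agent.Lib.Correspondences.PrincipalSolvable
import Cfsg.Agent.Lib.CharTheory.Convolution
import Cfsg.Agent.Lib.PSolvablePairs.Pairs

/-!
Counting the pairs of elements of order `p` whose product is `p`-singular: when every two elements
of order `p` generate a `p`-solvable subgroup there are many of them, and the principal block
computes their number.
-/

set_option autoImplicit false
set_option linter.style.haveILetI false
set_option linter.unusedSectionVars false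

namespace CfsgLib.PSolvablePairs

open Cfsg CfsgLib.CharTheory CfsgLib.Blocks CfsgLib.BrauerCharacters Finset
open CfsgLib.BlockSections.Exceptional
open scoped ComplexConjugate

variable {G : Type*} [Group G] [Fintype G] {p : ℕ} [hp : Fact p.Prime]

open scoped Classical in
/-- The elements of order `p`. -/
noncomputable def ordP (G : Type*) [Group G] [Fintype G] (p : ℕ) : Finset G :=
  univ.filter fun u => orderOf u = p

open scoped Classical in
/-- The singular elements with `p`-part of order `p`. -/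
noncomputable def singP (G : Type*) [Group G] [Fintype G] (p : ℕ) : Finset G :=
  univ.filter fun z => p ∣ orderOf z ∧ ¬ p ∣ orderOf (z ^ p)

open scoped Classical in
/-- The regular elements commuting with `u`. -/
noncomputable def regCen (p : ℕ) (u : G) : Finset G :=
  univ.filter fun v => Commute u v ∧ ¬ p ∣ orderOf v

/-- Counting solutions of `a b ∈ Z` by characters. -/
theorem sum_class_fun_mul [Fintype (IrrCharacter G)] {f h : G → ℂ} (hf : IsClassFunction G f)
    (hh : IsClassFunction G h) :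
    ∑ a : G, ∑ b : G, f a * f b * h (a * b) =
      ∑ χ : IrrCharacter G, classInner h (χ : G → ℂ) *
        ((∑ a : G, f a * (χ : G → ℂ) a) ^ 2 / (χ : G → ℂ) 1) := by
  have hexp : ∀ g, h g = ∑ χ : IrrCharacter G, classInner h (χ : G → ℂ) * (χ : G → ℂ) g := fun g => by
    simpa [Finset.sum_apply, smul_eq_mul] using congrFun (eq_sum_classInner hh) g
  calc ∑ a : G, ∑ b : G, f a * f b * h (a * b)
      = ∑ χ : IrrCharacter G, classInner h (χ : G → ℂ) *
          ∑ a : G, ∑ b : G, f a * f b * (χ : G → ℂ) (a * b) := by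
        simp only [hexp, mul_sum]
        rw [sum_congr rfl fun a _ => sum_comm, sum_comm]
        exact sum_congr rfl fun χ _ => sum_congr rfl fun a _ => sum_congr rfl fun b _ => by ring
    _ = _ := by
        refine sum_congr rfl fun χ _ => congrArg _ ?_
        have hG : (Nat.card G : ℂ) ≠ 0 := Nat.cast_ne_zero.2 Nat.card_pos.ne'
        apply mul_left_cancel₀ hG
        have key : ∀ c : G, ∑ a : G, ∑ b : G, f a * f b * (χ : G → ℂ) (a * b) =
            ∑ a : G, ∑ b : G, f a * f b * (χ : G → ℂ) (c * a * c⁻¹ * b) := fun c => by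
          refine (Fintype.sum_equiv (MulAut.conj c).toEquiv _ _ fun a => ?_).symm
          show _ = ∑ b : G, f (c * a * c⁻¹) * f b * (χ : G → ℂ) (c * a * c⁻¹ * b)
          rw [hf a c]
        have h2 : (Nat.card G : ℂ) * ∑ a : G, ∑ b : G, f a * f b * (χ : G → ℂ) (a * b) =
            ∑ a : G, ∑ b : G, f a * f b * ∑ c : G, (χ : G → ℂ) (c * a * c⁻¹ * b) := by
          have e : ∀ a : G, ∑ b : G, f a * f b * ∑ c : G, (χ : G → ℂ) (c * a * c⁻¹ * b) =
              ∑ c : G, ∑ b : G, f a * f b * (χ : G → ℂ) (c * a * c⁻¹ * b) := fun a => by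
            simp only [mul_sum]
            exact sum_comm
          symm
          rw [sum_congr rfl fun a _ => e a, Finset.sum_comm, sum_congr rfl fun c _ => (key c).symm,
            sum_const, card_univ, nsmul_eq_mul, Nat.card_eq_fintype_card]
        rw [h2]
        simp only [IsIrrCharacter.sum_conj_mul χ.2, sum_div, pow_two, mul_sum, sum_mul]
        rw [sum_comm]
        refine sum_congr rfl fun a _ => sum_congr rfl fun b _ => ?_
        ring

/-- A sum over the singular elements with `p`-part of order `p`, fibred over the `p`-parts. -/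
theorem sum_singP (φ : G → ℂ) :
    ∑ z ∈ singP G p, φ z = ∑ u ∈ ordP G p, ∑ v ∈ regCen p u, φ (u * v) := by
  classical
  rw [sum_sigma']
  symm
  have hmem : ∀ a : (_ : G) × G, a ∈ (ordP G p).sigma (fun u => regCen p u) ↔
      orderOf a.1 = p ∧ Commute a.1 a.2 ∧ ¬ p ∣ orderOf a.2 := fun a => by
    simp [ordP, regCen]
  have hpart : ∀ a : (_ : G) × G, a ∈ (ordP G p).sigma (fun u => regCen p u) →
      IsPPart p (a.1 * a.2) a.1 := fun a ha =>
    ⟨a.2, rfl, ((hmem a).1 ha).2.1, ⟨1, by rw [pow_one]; exact ((hmem a).1 ha).1⟩, ((hmem a).1 ha).2.2⟩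
  refine sum_bij (fun a _ => a.1 * a.2) ?_ ?_ ?_ (fun _ _ => rfl)
  · intro a ha
    obtain ⟨h1, hc, h2⟩ := (hmem a).1 ha
    simp only [singP, mem_filter, mem_univ, true_and]
    refine ⟨?_, ?_⟩
    · by_contra hn
      have := (isPPart_eq_one_iff (hpart a ha)).2 hn
      rw [this, orderOf_one] at h1
      exact hp.out.one_lt.ne h1
    · rw [← isPPart_eq_one_iff (IsPPart.pow (hpart a ha) p), ← h1, pow_orderOf_eq_one]
  · intro a ha b hb he
    have h1 : a.1 = b.1 := IsPPart.unique (hpart a ha) (he ▸ hpart b hb)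
    obtain ⟨a1, a2⟩ := a
    obtain ⟨b1, b2⟩ := b
    simp only at h1 he
    subst h1
    rw [mul_left_cancel he]
  · intro z hz
    simp only [singP, mem_filter, mem_univ, true_and] at hz
    obtain ⟨x, hx⟩ := exists_isPPart p z
    obtain ⟨v, hxv, hc, hxp, hv⟩ := hx
    have hx' : IsPPart p z x := ⟨v, hxv, hc, hxp, hv⟩
    have hxp1 : x ^ p = 1 := (isPPart_eq_one_iff (IsPPart.pow hx' p)).2 hz.2
    have hx1 : x ≠ 1 := fun h => (isPPart_eq_one_iff hx').1 h hz.1
    exact ⟨⟨x, v⟩, (hmem _).2 ⟨orderOf_eq_prime hxp1 hx1, hc, hv⟩, hxv⟩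

variable {P : Sylow p G} {m : ℕ} {M : Ideal AlgInt} [M.IsPrime]

/-- The elements of order `p` of `P`. -/
noncomputable def ordIn (P : Sylow p G) : Finset (P : Subgroup G) :=
  (Set.toFinite {y : (P : Subgroup G) | orderOf (y : G) = p}).toFinset

theorem mem_ordIn {y : (P : Subgroup G)} : y ∈ ordIn P ↔ orderOf (y : G) = p :=
  Set.Finite.mem_toFinset _

/-- The regular part of a centralizer in the sums over a section. -/
theorem sum_regCen_of_mem (hF : IsFrobSylow P m) (hM : IsPModular p M) (χ : IrrCharacter G) {y : G}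
    (hy : y ∈ (P : Subgroup G)) (h1 : y ≠ 1) [Decidable (χ ∈ principalBlock M G)] :
    (Nat.card (P : Subgroup G) : ℂ) * ∑ v ∈ regCen p y, (χ : G → ℂ) (y * v) =
      if χ ∈ principalBlock M G then
        (Nat.card (Subgroup.centralizer ({y} : Set G)) : ℂ) * (χ : G → ℂ) y else 0 := by
  classical
  set C := Subgroup.centralizer ({y} : Set G) with hC
  haveI : Fintype C := Fintype.ofFinite C
  haveI := Fintype.ofFinite (IrrCharacter C)
  obtain ⟨O, hn, hO, hreg, hcard, -, hdec⟩ := exists_complement hF hy h1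
  haveI := hn
  haveI := Fintype.ofFinite O
  have hsum : ∑ v ∈ regCen p y, (χ : G → ℂ) (y * v) =
      ∑ s : O, (χ : G → ℂ) (y * ((s : Subgroup.centralizer ({y} : Set G)) : G)) := by
    symm
    refine sum_bij (fun s _ => ((s : Subgroup.centralizer ({y} : Set G)) : G)) ?_ ?_ ?_ (fun _ _ => rfl)
    · intro s _
      simp only [regCen, mem_filter, mem_univ, true_and]
      refine ⟨(Subgroup.mem_centralizer_singleton_iff.1 s.1.2).symm, ?_⟩
      rw [Subgroup.orderOf_coe]
      exact (hreg _).2 s.2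
    · intro s _ t _ h
      exact Subtype.ext (Subtype.ext h)
    · intro v hv
      simp only [regCen, mem_filter, mem_univ, true_and] at hv
      refine ⟨⟨⟨v, Subgroup.mem_centralizer_singleton_iff.2 hv.1.eq.symm⟩,
        (hreg _).1 (by rw [← Subgroup.orderOf_coe]; exact hv.2)⟩, mem_univ _, rfl⟩
  rw [hsum]
  split_ifs with hχ
  · rw [sum_congr rfl fun s _ => ?_, sum_const, card_univ, nsmul_eq_mul, ← Nat.card_eq_fintype_card,
      ← mul_assoc, ← Nat.cast_mul, mul_comm (Nat.card (P : Subgroup G)), hcard]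
    refine apply_section hF hM hχ ⟨_, rfl, (Subgroup.mem_centralizer_singleton_iff.1 s.1.2).symm,
      isPElem hF hM hy, ?_⟩ hy h1
    rw [Subgroup.orderOf_coe]
    exact (hreg _).2 s.2
  · set b := principalBlock M C with hb
    have hsolv : IsPSolvable p C := by
      refine CfsgLib.PSolvable.isPSolvable_of_step O (Or.inr ((hp.out.coprime_iff_not_dvd).2 hO).symm) ?_
      obtain ⟨k, hk⟩ := IsPGroup.iff_card.1 P.2
      refine CfsgLib.PSolvable.isPSolvable_of_isPGroup (IsPGroup.of_card (n := k) ?_)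
      have h := Subgroup.card_eq_card_quotient_mul_card_subgroup O
      rw [← hcard, hk, mul_comm (Nat.card O)] at h
      exact (Nat.eq_of_mul_eq_mul_right Nat.card_pos h).symm
    have hblock : ∀ ξ : IrrCharacter C,
        ξ ∈ blockFinset b ↔ ∀ s ∈ O, (ξ : C → ℂ) s = (ξ : C → ℂ) 1 := by
      intro ξ
      rw [mem_blockFinset]
      refine ⟨fun h s hs => CfsgLib.Correspondences.apply_eq_of_mem_principalBlock hM h O hO hs,
        fun h => CfsgLib.Correspondences.mem_principalBlock_of_trivial_on_pPrimeCore hM hsolv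
          fun s hs => h s ((hreg s).1 fun hd => ?_)⟩
      exact hp.out.coprime_iff_not_dvd.1 (CfsgLib.Cores.card_pPrimeCore_coprime (G := C) p).symm
        (hd.trans (Subgroup.orderOf_dvd_natCard _ hs))
    have hzero := secPart_principal_of_notMem y (isPElem hF hM hy) hM hχ (s := 1)
      (by rw [orderOf_one]; exact hp.out.not_dvd_one)
    have hval : ∀ s : O, (χ : G → ℂ) (y * ((s : C) : G)) =
        ∑ ξ : IrrCharacter C, (resMult y χ ξ : ℂ) *
          (centralVal (ξ : C → ℂ) (cenElem y) * (ξ : C → ℂ) (s : C)) := by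
      intro s
      rw [show y * ((s : C) : G) = ((cenElem y * (s : C) : C) : G) from rfl, res_eq_sum y χ]
      exact sum_congr rfl fun ξ _ => by rw [(centralVal_spec ξ (commute_cenElem y)).2 (s : C)]
    rw [sum_congr rfl fun s _ => hval s, sum_comm]
    have hterm : ∀ ξ : IrrCharacter C, ∑ s : O, (resMult y χ ξ : ℂ) *
          (centralVal (ξ : C → ℂ) (cenElem y) * (ξ : C → ℂ) (s : C)) =
        if ξ ∈ blockFinset b then
          (Nat.card O : ℂ) * ((resMult y χ ξ : ℂ) * (ξ : C → ℂ) (cenElem y * 1)) else 0 := by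
      intro ξ
      rw [← mul_sum, ← mul_sum]
      split_ifs with h
      · rw [sum_congr rfl fun (s : O) _ => (hblock ξ).1 h s s.2, sum_const, card_univ, nsmul_eq_mul,
          ← Nat.card_eq_fintype_card, (centralVal_spec ξ (commute_cenElem y)).2 1]
        ring
      · rw [hblock] at h
        push Not at h
        rw [CfsgLib.Correspondences.sum_normal_eq_zero ξ.2 O h, mul_zero, mul_zero]
    rw [sum_congr rfl fun ξ _ => hterm ξ, sum_ite_mem, univ_inter, ← mul_sum]
    simp only [secPart] at hzero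
    rw [hzero, mul_zero, mul_zero]

/-- The sum of a character over the singular elements with `p`-part of order `p`. -/
theorem card_mul_sum_singP (hF : IsFrobSylow P m) (hM : IsPModular p M) {D : ℕ}
    (hD : ∀ u : G, orderOf u = p → Nat.card (Subgroup.centralizer ({u} : Set G)) = D)
    (χ : IrrCharacter G) [Decidable (χ ∈ principalBlock M G)] :
    (Nat.card (P : Subgroup G) : ℂ) * ∑ z ∈ singP G p, (χ : G → ℂ) z =
      if χ ∈ principalBlock M G then (D : ℂ) * ∑ u ∈ ordP G p, (χ : G → ℂ) u else 0 := by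
  classical
  rw [sum_singP, mul_sum]
  have hterm : ∀ u ∈ ordP G p, (Nat.card (P : Subgroup G) : ℂ) * ∑ v ∈ regCen p u, (χ : G → ℂ) (u * v)
      = if χ ∈ principalBlock M G then (D : ℂ) * (χ : G → ℂ) u else 0 := by
    intro u hu
    have hu' : orderOf u = p := by simpa [ordP] using hu
    have hup : IsPGroup p (Subgroup.zpowers u) :=
      IsPGroup.of_card (n := 1) (by rw [Nat.card_zpowers, hu', pow_one])
    obtain ⟨Q, hQ⟩ := hup.exists_le_sylow
    obtain ⟨g, hg⟩ := MulAction.exists_smul_eq G P Q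
    have hy : g⁻¹ * u * g ∈ (P : Subgroup G) := by
      have h1 : u ∈ (Q : Subgroup G) := hQ (Subgroup.mem_zpowers u)
      rw [← hg, Sylow.coe_subgroup_smul] at h1
      obtain ⟨d, hd, rfl⟩ := h1
      simpa [mul_assoc] using show d ∈ (P : Subgroup G) from hd
    set y := g⁻¹ * u * g with hydef
    have hyo : orderOf y = p := by
      rw [← hu', ← (MulAut.conj g).orderOf_eq y]
      congr 1
      simp [hydef, mul_assoc]
    have h1 : y ≠ 1 := fun h => hp.out.one_lt.ne (by rw [← hyo, h, orderOf_one])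
    have huy : u = g * y * g⁻¹ := by simp [hydef, mul_assoc]
    have hsum : ∑ v ∈ regCen p u, (χ : G → ℂ) (u * v) = ∑ v ∈ regCen p y, (χ : G → ℂ) (y * v) := by
      symm
      refine sum_bij (fun v _ => g * v * g⁻¹) ?_ (fun a _ b _ h => by simpa using h) ?_ ?_
      · intro v hv
        simp only [regCen, mem_filter, mem_univ, true_and] at hv ⊢
        refine ⟨?_, by rw [show g * v * g⁻¹ = MulAut.conj g v from rfl, MulEquiv.orderOf_eq]; exact hv.2⟩
        rw [huy]
        exact hv.1.map (MulAut.conj g).toMonoidHom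
      · intro v hv
        simp only [regCen, mem_filter, mem_univ, true_and] at hv
        refine ⟨g⁻¹ * v * g, ?_, by group⟩
        simp only [regCen, mem_filter, mem_univ, true_and]
        refine ⟨?_, ?_⟩
        · have h := hv.1.map (MulAut.conj g⁻¹).toMonoidHom
          simpa [hydef] using h
        · rw [show g⁻¹ * v * g = MulAut.conj g⁻¹ v by simp, MulEquiv.orderOf_eq]
          exact hv.2
      · intro v _
        rw [huy, show g * y * g⁻¹ * (g * v * g⁻¹) = g * (y * v) * g⁻¹ by group,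
          IsIrrCharacter.isClassFunction χ.2 (y * v) g]
    rw [hsum, sum_regCen_of_mem hF hM χ hy h1, hD y hyo, huy, IsIrrCharacter.isClassFunction χ.2 y g]
  rw [sum_congr rfl hterm]
  split_ifs
  · rw [mul_sum]
  · simp

/-- Summing a class function over all elements of order `p` through those in `P`. -/
theorem sum_ordP_mul (hF : IsFrobSylow P m) (hM : IsPModular p M) {D : ℕ}
    (hD : ∀ u : G, orderOf u = p → Nat.card (Subgroup.centralizer ({u} : Set G)) = D)
    {φ : G → ℂ} (hφ : IsClassFunction G φ) :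
    ((D * m : ℕ) : ℂ) * ∑ u ∈ ordP G p, φ u =
      (Nat.card G : ℂ) * ∑ y ∈ ordIn P, φ y := by
  classical
  set X := ordIn P with hX
  have hR : (Nat.card G : ℂ) * ∑ y ∈ X, φ y = ∑ a ∈ X ×ˢ (univ : Finset G), φ (a.2 * (a.1 : G) * a.2⁻¹) := by
    rw [sum_product, mul_sum]
    refine sum_congr rfl fun y _ => ?_
    rw [sum_congr rfl fun g _ => hφ (y : G) g, sum_const, card_univ, nsmul_eq_mul,
      Nat.card_eq_fintype_card]
  rw [hR, mul_sum, ← sum_fiberwise_of_maps_to (t := ordP G p)
    (g := fun a : ↥(P : Subgroup G) × G => a.2 * (a.1 : G) * a.2⁻¹) (fun a ha => ?_)]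
  swap
  · simp only [hX, mem_product, mem_ordIn, mem_univ, and_true] at ha
    simp only [ordP, mem_filter, mem_univ, true_and]
    rw [show a.2 * a.1 * a.2⁻¹ = MulAut.conj a.2 (a.1 : G) from rfl, MulEquiv.orderOf_eq]
    exact ha
  refine sum_congr rfl fun u hu => ?_
  rw [sum_congr rfl fun a ha => by rw [(mem_filter.1 ha).2], sum_const, nsmul_eq_mul]
  congr 1
  norm_cast
  have hu' : orderOf u = p := by simpa [ordP] using hu
  obtain ⟨g₀, hg₀⟩ : ∃ g₀ : G, g₀⁻¹ * u * g₀ ∈ (P : Subgroup G) := by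
    have hup : IsPGroup p (Subgroup.zpowers u) :=
      IsPGroup.of_card (n := 1) (by rw [Nat.card_zpowers, hu', pow_one])
    obtain ⟨Q, hQ⟩ := hup.exists_le_sylow
    obtain ⟨g, hg⟩ := MulAction.exists_smul_eq G P Q
    refine ⟨g, ?_⟩
    have h1 : u ∈ (Q : Subgroup G) := hQ (Subgroup.mem_zpowers u)
    rw [← hg, Sylow.coe_subgroup_smul] at h1
    obtain ⟨d, hd, rfl⟩ := h1
    simpa [mul_assoc] using show d ∈ (P : Subgroup G) from hd
  set y₀ : (P : Subgroup G) := ⟨g₀⁻¹ * u * g₀, hg₀⟩ with hy₀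
  have hy₀o : orderOf (y₀ : G) = p := by
    refine Eq.trans ?_ hu'
    show orderOf (g₀⁻¹ * u * g₀) = orderOf u
    rw [show g₀⁻¹ * u * g₀ = MulAut.conj g₀⁻¹ u by simp, MulEquiv.orderOf_eq]
  have hy₀1 : y₀ ≠ 1 := fun h => hp.out.one_lt.ne (by rw [← hy₀o, h]; simp)
  set Xu := X.filter (fun y : (P : Subgroup G) => IsConj (y : G) u)
  have hXu : Xu = (univ : Finset ↥(autP P)).image (fun α : ↥(autP P) => (α : MulAut (P : Subgroup G)) y₀) := by
    ext y
    simp only [Xu, hX, mem_filter, mem_ordIn, mem_univ, true_and, mem_image]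
    have hcu : IsConj (y₀ : G) u := isConj_iff.2 ⟨g₀, by simp [hy₀, mul_assoc]⟩
    constructor
    · rintro ⟨-, h⟩
      obtain ⟨α, hα, he⟩ := (isConj_iff_autP hF).1 (hcu.trans h.symm)
      exact ⟨⟨α, hα⟩, he⟩
    · rintro ⟨α, rfl⟩
      have h := (isConj_iff_autP hF (y := y₀)).2 ⟨α, α.2, rfl⟩
      obtain ⟨c, hc⟩ := isConj_iff.1 h
      refine ⟨?_, h.symm.trans hcu⟩
      rw [← hc, show c * (y₀ : G) * c⁻¹ = MulAut.conj c (y₀ : G) from rfl, MulEquiv.orderOf_eq, hy₀o]
  have hXucard : Xu.card = m := by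
    rw [hXu, card_image_of_injective _ (fun α β h => Subtype.ext (eq_of_autP_apply hF α.2 β.2 hy₀1 h)),
      card_univ, ← Nat.card_eq_fintype_card, card_autP hF]
  rw [show filter (fun a : ↥(P : Subgroup G) × G => a.2 * (a.1 : G) * a.2⁻¹ = u) (X ×ˢ univ) =
      Xu.biUnion (fun y => (univ.filter (fun g : G => g * (y : G) * g⁻¹ = u)).image (fun g => (y, g))) from ?_]
  · rw [card_biUnion, sum_congr rfl (g := fun _ => D), sum_const, hXucard, smul_eq_mul, mul_comm]
    · intro y hy
      obtain ⟨hy1, hy2⟩ := mem_filter.1 hy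
      obtain ⟨c, hc⟩ := isConj_iff.1 hy2
      rw [card_image_of_injective _ (fun a b h => (Prod.ext_iff.1 h).2),
        ← hD (y : G) (mem_ordIn.1 hy1), ← Fintype.card_subtype, ← Nat.card_eq_fintype_card]
      refine Nat.card_congr ((Equiv.mulLeft c⁻¹).subtypeEquiv fun g => ?_)
      rw [Subgroup.mem_centralizer_singleton_iff, Equiv.coe_mulLeft]
      constructor
      · intro hg
        have h := hg.trans hc.symm
        calc c⁻¹ * g * (y : G) = c⁻¹ * (g * y * g⁻¹) * g := by group
          _ = c⁻¹ * (c * y * c⁻¹) * g := by rw [h]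
          _ = (y : G) * (c⁻¹ * g) := by group
      · intro hx
        calc g * (y : G) * g⁻¹ = c * (c⁻¹ * g * y) * (c⁻¹ * g)⁻¹ * c⁻¹ := by group
          _ = c * (y * (c⁻¹ * g)) * (c⁻¹ * g)⁻¹ * c⁻¹ := by rw [hx]
          _ = u := by rw [← hc]; group
    · intro a _ b _ hab
      simp only [Function.onFun, disjoint_left, mem_image]
      rintro _ ⟨g, -, rfl⟩ ⟨g', -, h⟩
      exact hab (Prod.ext_iff.1 h).1.symm
  · ext a
    simp only [Xu, mem_filter, mem_product, mem_univ, and_true, mem_biUnion, mem_image, true_and]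
    constructor
    · rintro ⟨h1, h2⟩
      exact ⟨a.1, ⟨h1, isConj_iff.2 ⟨a.2, h2⟩⟩, a.2, h2, rfl⟩
    · rintro ⟨y, ⟨h1, -⟩, g, h2, rfl⟩
      exact ⟨h1, h2⟩

/-- Many pairs have a singular product. -/
theorem card_singular_pairs (P : Sylow p G) (hab : IsMulCommutative (P : Subgroup G))
    (hpair : ∀ x y : G, orderOf x = p → orderOf y = p →
      IsPSolvable p ↥(Subgroup.closure ({x, y} : Set G))) [DecidableEq G] :
    (p - 2) * (ordP G p).card ^ 2 ≤
      (p - 1) * ((ordP G p ×ˢ ordP G p).filter (fun a : G × G => a.1 * a.2 ∈ singP G p)).card := by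
  classical
  set K := ordP G p
  have hK : ∀ u, u ∈ K ↔ orderOf u = p := fun u => by simp [K, ordP]
  set N := ((K ×ˢ K).filter (fun a : G × G => a.1 * a.2 ∈ singP G p)).card
  have hj : ∀ j ∈ Finset.Ico 1 p,
      ((K ×ˢ K).filter (fun a : G × G => a.1 * a.2 ^ j ∈ singP G p)).card = N := by
    intro j hj
    rw [mem_Ico] at hj
    have hcop : Nat.Coprime j p :=
      ((hp.out.coprime_iff_not_dvd).2 fun hd => by have := Nat.le_of_dvd (by omega) hd; omega).symm
    have hinv : ∀ u : G, orderOf u = p → orderOf (u ^ j) = p := fun u hu => by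
      rw [(show (orderOf u).Coprime j by rw [hu]; exact hcop.symm).orderOf_pow, hu]
    refine card_bij (fun a _ => (a.1, a.2 ^ j)) ?_ ?_ ?_
    · intro a ha
      simp only [mem_filter, mem_product, hK] at ha ⊢
      exact ⟨⟨ha.1.1, hinv _ ha.1.2⟩, ha.2⟩
    · intro a ha b hb h
      simp only [mem_filter, mem_product, hK] at ha hb
      simp only [Prod.mk.injEq] at h
      refine Prod.ext h.1 ?_
      obtain ⟨i, -, hi⟩ := Nat.exists_mul_mod_eq_one_of_coprime hcop hp.out.one_lt
      have e : ∀ u : G, orderOf u = p → (u ^ j) ^ i = u := fun u hu => by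
        rw [← pow_mul, ← pow_mod_orderOf, hu, hi, pow_one]
      rw [← e a.2 ha.1.2, h.2, e b.2 hb.1.2]
    · intro b hb
      simp only [mem_filter, mem_product, hK] at hb
      obtain ⟨i, -, hi⟩ := Nat.exists_mul_mod_eq_one_of_coprime hcop hp.out.one_lt
      have hcop' : Nat.Coprime i p := (hp.out.coprime_iff_not_dvd.2 fun hd => by
        rw [Nat.mul_mod, Nat.mod_eq_zero_of_dvd hd, mul_zero, Nat.zero_mod] at hi
        exact zero_ne_one hi).symm
      have hbi : (b.2 ^ i) ^ j = b.2 := by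
        rw [← pow_mul, mul_comm, ← pow_mod_orderOf, hb.1.2, hi, pow_one]
      refine ⟨(b.1, b.2 ^ i), ?_, Prod.ext rfl hbi⟩
      simp only [mem_filter, mem_product, hK, hbi]
      exact ⟨⟨hb.1.1, by rw [(show (orderOf b.2).Coprime i by rw [hb.1.2]; exact hcop'.symm).orderOf_pow, hb.1.2]⟩, hb.2⟩
  have hpt : ∀ a ∈ K ×ˢ K, p - 2 ≤ ((Finset.Ico 1 p).filter (fun j => a.1 * a.2 ^ j ∈ singP G p)).card := by
    intro a ha
    simp only [mem_product, hK] at ha
    set R := (Finset.Ico 1 p).filter (fun j => ¬ p ∣ orderOf (a.1 * a.2 ^ j))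
    have huniq := (exists_regular_criterion P hab ha.1 ha.2 (hpair _ _ ha.1 ha.2)).2
    have hR : R.card ≤ 1 := card_le_one.2 fun i hi j hj => by
      simp only [R, mem_filter, mem_Ico] at hi hj
      exact huniq i j hi.1.2 hj.1.2 hi.2 hj.2
    have hsub : (Finset.Ico 1 p) \ R ⊆ (Finset.Ico 1 p).filter (fun j => a.1 * a.2 ^ j ∈ singP G p) := by
      intro j hj
      simp only [R, mem_sdiff, mem_filter, mem_Ico, not_and, not_not] at hj
      simp only [mem_filter, mem_Ico, singP, mem_univ, true_and]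
      have hyj : orderOf (a.2 ^ j) = p := by
        rw [Nat.Coprime.orderOf_pow, ha.2]
        rw [ha.2]
        exact hp.out.coprime_iff_not_dvd.2 fun hd => by
          have := Nat.le_of_dvd (by omega) hd; omega
      exact ⟨hj.1, hj.2 hj.1, (exists_regular_criterion P hab ha.1 hyj (hpair _ _ ha.1 hyj)).1⟩
    have h := (le_card_sdiff R (Finset.Ico 1 p)).trans (card_le_card hsub)
    rw [Nat.card_Ico] at h
    omega
  calc (p - 2) * K.card ^ 2 = ∑ a ∈ K ×ˢ K, (p - 2) := by
        rw [sum_const, card_product, smul_eq_mul, pow_two, mul_comm]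
    _ ≤ ∑ a ∈ K ×ˢ K, ((Finset.Ico 1 p).filter (fun j => a.1 * a.2 ^ j ∈ singP G p)).card := sum_le_sum hpt
    _ = ∑ j ∈ Finset.Ico 1 p, ((K ×ˢ K).filter (fun a : G × G => a.1 * a.2 ^ j ∈ singP G p)).card := by
        simp only [card_filter]; exact sum_comm
    _ = (p - 1) * N := by rw [sum_congr rfl hj, sum_const, Nat.card_Ico, smul_eq_mul]

/-- The inequality of the principal block. -/
theorem principal_bound (hF : IsFrobSylow P m) (hM : IsPModular p M) {D : ℕ}
    (hD : ∀ u : G, orderOf u = p → Nat.card (Subgroup.centralizer ({u} : Set G)) = D)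
    (hpair : ∀ x y : G, orderOf x = p → orderOf y = p →
      IsPSolvable p ↥(Subgroup.closure ({x, y} : Set G)))
    (T : IrrCharacter G → ℤ)
    (hT : ∀ χ ∈ principalBlock M G,
      ∑ y ∈ ordIn P, (χ : G → ℂ) y = (T χ : ℂ))
    {k : ℕ} (hk : (ordIn P).card = k) :
    ((p - 2 : ℕ) : ℝ) * (k : ℝ) ^ 2 * m * (Nat.card (P : Subgroup G) : ℝ) ≤
      ((p - 1 : ℕ) : ℝ) * ∑ χ ∈ blockFinset (principalBlock M G),
        (T χ : ℝ) ^ 3 / (charDegree (χ : G → ℂ) : ℝ) := by
  classical
  haveI := Fintype.ofFinite (IrrCharacter G)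
  set q := Nat.card (P : Subgroup G) with hq
  set K := ordP G p
  set N := ((K ×ˢ K).filter (fun a : G × G => a.1 * a.2 ∈ singP G p)).card
  have hN := card_singular_pairs P hF.comm hpair
  have hq0 : (q : ℂ) ≠ 0 := Nat.cast_ne_zero.2 Nat.card_pos.ne'
  have hG0 : (Nat.card G : ℂ) ≠ 0 := Nat.cast_ne_zero.2 Nat.card_pos.ne'
  have hm0 : 0 < m := by rw [← card_autP hF]; exact Nat.card_pos
  by_cases hk0 : k = 0
  · subst hk0
    have : ∀ χ ∈ blockFinset (principalBlock M G), (T χ : ℝ) ^ 3 / (charDegree (χ : G → ℂ) : ℝ) = 0 := by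
      intro χ hχ
      have h := hT χ (mem_blockFinset.1 hχ)
      rw [card_eq_zero.1 hk, sum_empty, eq_comm, Int.cast_eq_zero] at h
      simp [h]
    rw [sum_congr rfl this]
    simp
  have hD0 : 0 < D := by
    obtain ⟨y, hy⟩ := card_pos.1 (Nat.pos_of_ne_zero (hk ▸ hk0))
    rw [← hD (y : G) (mem_ordIn.1 hy)]
    exact Nat.card_pos
  -- the class sums
  have hK : ∀ χ ∈ principalBlock M G, ((D * m : ℕ) : ℂ) * ∑ u ∈ K, (χ : G → ℂ) u =
      (Nat.card G : ℂ) * (T χ : ℂ) := fun χ hχ => by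
    rw [sum_ordP_mul hF hM hD (IsIrrCharacter.isClassFunction χ.2), hT χ hχ]
  have hKcard : (D * m) * K.card = Nat.card G * k := by
    have h := sum_ordP_mul hF hM hD (φ := fun _ => (1 : ℂ)) (fun _ _ => rfl)
    simp only [sum_const, nsmul_eq_mul, mul_one, hk] at h
    exact_mod_cast h
  -- the count
  have hcount : (N : ℂ) = ∑ χ : IrrCharacter G,
      classInner (fun z => if z ∈ singP G p then (1 : ℂ) else 0) (χ : G → ℂ) *
        ((∑ u ∈ K, (χ : G → ℂ) u) ^ 2 / (χ : G → ℂ) 1) := by
    have hcl1 : IsClassFunction G (fun u => if u ∈ K then (1 : ℂ) else 0) := fun u c => by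
      have : c * u * c⁻¹ ∈ K ↔ u ∈ K := by
        simp only [K, ordP, mem_filter, mem_univ, true_and]
        rw [show c * u * c⁻¹ = MulAut.conj c u from rfl, MulEquiv.orderOf_eq]
      simp only [this]
    have hcl2 : IsClassFunction G (fun z => if z ∈ singP G p then (1 : ℂ) else 0) := fun u c => by
      have : c * u * c⁻¹ ∈ singP G p ↔ u ∈ singP G p := by
        simp only [singP, mem_filter, mem_univ, true_and]
        rw [show c * u * c⁻¹ = MulAut.conj c u from rfl, ← map_pow, MulEquiv.orderOf_eq,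
          MulEquiv.orderOf_eq]
      simp only [this]
    have h := sum_class_fun_mul hcl1 hcl2
    simp only [ite_mul, one_mul, zero_mul, sum_ite_irrel, sum_const_zero, sum_ite_mem, univ_inter] at h
    rw [← h]
    simp only [N, card_filter, sum_product, Nat.cast_sum, Nat.cast_ite, Nat.cast_one, Nat.cast_zero]
  have hcoef : ∀ χ : IrrCharacter G,
      classInner (fun z => if z ∈ singP G p then (1 : ℂ) else 0) (χ : G → ℂ) =
        if χ ∈ principalBlock M G then (D : ℂ) * (T χ : ℂ) / ((q : ℂ) * ((D * m : ℕ) : ℂ)) else 0 := by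
    intro χ
    have h := card_mul_sum_singP hF hM hD χ
    rw [classInner]
    simp only [ite_mul, one_mul, zero_mul, sum_ite_mem, univ_inter, ← map_sum]
    have hs : ∑ z ∈ singP G p, (χ : G → ℂ) z = if χ ∈ principalBlock M G then
        (D : ℂ) * ((Nat.card G : ℂ) * (T χ : ℂ) / ((D * m : ℕ) : ℂ)) / (q : ℂ) else 0 := by
      apply mul_left_cancel₀ hq0
      rw [h]
      split_ifs with hχ
      · have hDm : ((D * m : ℕ) : ℂ) ≠ 0 := Nat.cast_ne_zero.2 (by positivity)
        rw [← hK χ hχ, mul_div_cancel_left₀ _ hDm]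
        field_simp
        rfl
      · simp
    rw [hs]
    split_ifs
    · simp only [map_div₀, map_mul, map_natCast, map_intCast]
      have hDm : ((D * m : ℕ) : ℂ) ≠ 0 := Nat.cast_ne_zero.2 (by positivity)
      field_simp
    · simp
  rw [sum_congr rfl fun χ _ => by rw [hcoef χ]] at hcount
  simp only [ite_mul, zero_mul] at hcount
  rw [← sum_filter] at hcount
  have hBeq : univ.filter (fun χ : IrrCharacter G => χ ∈ principalBlock M G) =
      blockFinset (principalBlock M G) := by
    ext χ; simp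
  rw [hBeq] at hcount
  have hreal : (N : ℝ) * ((q : ℝ) * ((D * m : ℕ) : ℝ) ^ 3) =
      (D : ℝ) * (Nat.card G : ℝ) ^ 2 *
        ∑ χ ∈ blockFinset (principalBlock M G), (T χ : ℝ) ^ 3 / (charDegree (χ : G → ℂ) : ℝ) := by
    apply Complex.ofReal_injective
    push_cast
    rw [hcount, sum_mul, mul_sum]
    refine sum_congr rfl fun χ hχ => ?_
    have hDm : ((D * m : ℕ) : ℂ) ≠ 0 := Nat.cast_ne_zero.2 (by positivity)
    have hd : (charDegree (χ : G → ℂ) : ℂ) ≠ 0 := Nat.cast_ne_zero.2 (charDegree_spec χ).2.1.ne'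
    have hsum : ∑ u ∈ K, (χ : G → ℂ) u = (Nat.card G : ℂ) * (T χ : ℂ) / ((D * m : ℕ) : ℂ) := by
      rw [← hK χ (mem_blockFinset.1 hχ), mul_div_cancel_left₀ _ hDm]
    rw [(charDegree_spec χ).1, hsum]
    push_cast
    have hD' : (D : ℂ) ≠ 0 := Nat.cast_ne_zero.2 hD0.ne'
    have hm' : (m : ℂ) ≠ 0 := Nat.cast_ne_zero.2 hm0.ne'
    field_simp
  have h1 : ((p - 2 : ℕ) : ℝ) * (K.card : ℝ) ^ 2 ≤ ((p - 1 : ℕ) : ℝ) * (N : ℝ) := by
    exact_mod_cast hN
  have h2 : ((D * m : ℕ) : ℝ) * (K.card : ℝ) = (Nat.card G : ℝ) * k := by exact_mod_cast hKcard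
  have hpos : (0 : ℝ) < (D : ℝ) * (Nat.card G : ℝ) ^ 2 := by
    have : (0 : ℝ) < (Nat.card G : ℝ) := by exact_mod_cast Nat.card_pos
    have : (0 : ℝ) < (D : ℝ) := by exact_mod_cast hD0
    positivity
  refine le_of_mul_le_mul_left ?_ hpos
  calc (D : ℝ) * (Nat.card G : ℝ) ^ 2 * (((p - 2 : ℕ) : ℝ) * (k : ℝ) ^ 2 * m * (q : ℝ))
      = ((p - 2 : ℕ) : ℝ) * (((D * m : ℕ) : ℝ) * (K.card : ℝ)) ^ 2 * ((q : ℝ) * ((D * m : ℕ) : ℝ)) := by
        rw [h2]; push_cast; ring
    _ = (((p - 2 : ℕ) : ℝ) * (K.card : ℝ) ^ 2) * ((q : ℝ) * ((D * m : ℕ) : ℝ) ^ 3) := by ring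
    _ ≤ (((p - 1 : ℕ) : ℝ) * (N : ℝ)) * ((q : ℝ) * ((D * m : ℕ) : ℝ) ^ 3) := by gcongr
    _ = _ := by rw [mul_assoc, hreal]; ring

end CfsgLib.PSolvablePairs
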