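import Cfsg.Agent.Lib.PSolvablePairs.Bound
import Cfsg.Agent.Lib.Blocks.Knorr
import Cfsg.Prelude.Def_Transfer

/-!
`p`-solvability of groups with cyclic Sylow `p`-subgroups from their pairs of elements of order `p`.
-/

set_option autoImplicit false
set_option linter.style.haveILetI false

namespace CfsgLib.PSolvablePairs

open Cfsg CfsgLib.BlockSections.Exceptional
open scoped commutatorElement

variable {G : Type*} [Group G] [Finite G] {p : ℕ} [hp : Fact p.Prime]

theorem isMulCommutative_of_cyclic {H : Type*} [Group H] (h : IsCyclic H) : IsMulCommutative H :=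
  ⟨⟨fun a b => by haveI := h; exact (IsCyclic.commGroup (α := H)).mul_comm a b⟩⟩

/-- A `p`-nilpotent centralizer gives fixed-point-freeness. -/
theorem mem_centralizer_of_pnilpotent (P : Sylow p G) (hab : IsMulCommutative (P : Subgroup G))
    {y : G} (hy : y ∈ (P : Subgroup G))
    (hC : HasNormalPComplement p ↥(Subgroup.centralizer ({y} : Set G))) {n : G}
    (hn : n ∈ Subgroup.normalizer ((P : Subgroup G) : Set G))
    (hny : n ∈ Subgroup.centralizer ({y} : Set G)) :
    n ∈ Subgroup.centralizer ((P : Subgroup G) : Set G) := by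
  set C := Subgroup.centralizer ({y} : Set G)
  have hPC : (P : Subgroup G) ≤ C := fun v hv => by
    rw [Subgroup.mem_centralizer_singleton_iff]
    exact congrArg Subtype.val (hab.is_comm.comm ⟨v, hv⟩ ⟨y, hy⟩)
  obtain ⟨Q, K, hK, hcomp⟩ := hC
  have hQ := sylow_comm_of_subgroup P hab C Q
  rw [Subgroup.mem_centralizer_iff]
  intro v hv
  have hw : n * v * n⁻¹ * v⁻¹ ∈ (P : Subgroup G) :=
    mul_mem ((Subgroup.mem_normalizer_iff.1 hn v).1 hv) (inv_mem hv)
  set n' : C := ⟨n, hny⟩
  set v' : C := ⟨v, hPC hv⟩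
  have hwK : n' * v' * n'⁻¹ * v'⁻¹ ∈ K := by
    rw [← QuotientGroup.eq_one_iff]
    have hs : ∀ c : C, ∃ b ∈ (Q : Subgroup C), (QuotientGroup.mk' K) b = (QuotientGroup.mk' K) c := by
      intro c
      obtain ⟨⟨⟨a, ha⟩, ⟨b, hb⟩⟩, hab', -⟩ := hcomp.existsUnique c
      refine ⟨b, hb, ?_⟩
      rw [← show a * b = c from hab', map_mul, show (QuotientGroup.mk' K) a = 1 from
        (QuotientGroup.eq_one_iff a).2 ha, one_mul]
    obtain ⟨a, ha, hae⟩ := hs n'
    obtain ⟨b, hb, hbe⟩ := hs v'
    show (QuotientGroup.mk' K) (n' * v' * n'⁻¹ * v'⁻¹) = 1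
    have hcomm : a * b = b * a := congrArg Subtype.val (hQ.is_comm.comm ⟨a, ha⟩ ⟨b, hb⟩)
    rw [map_mul, map_mul, map_mul, map_inv, map_inv, ← hae, ← hbe, ← map_mul, hcomm, map_mul]
    group
  have hKp : ¬ p ∣ Nat.card K := by
    rw [← hcomp.index_eq_card]; exact Q.not_dvd_index
  have h1 : orderOf (n * v * n⁻¹ * v⁻¹) ∣ Nat.card K := by
    have h := Subgroup.orderOf_dvd_natCard _ hwK
    rwa [← Subgroup.orderOf_coe] at h
  obtain ⟨k, hk⟩ := IsPGroup.iff_card.1 P.2
  have h2 : orderOf (n * v * n⁻¹ * v⁻¹) ∣ p ^ k := hk ▸ Subgroup.orderOf_dvd_natCard _ hw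
  have h3 := orderOf_eq_one_iff.1 (Nat.eq_one_of_dvd_coprimes
    (((hp.out.coprime_iff_not_dvd).2 hKp).pow_left k) h2 h1)
  rw [mul_inv_eq_one, mul_inv_eq_iff_eq_mul] at h3
  exact h3.symm

/-- For cyclic `P` the normalizer acts without fixed points. -/
theorem mem_centralizer_of_cyclic (P : Sylow p G) (hP : IsCyclic ↥(P : Subgroup G)) {y : G}
    (hy : y ∈ (P : Subgroup G)) (hy1 : y ≠ 1) {n : G}
    (hn : n ∈ Subgroup.normalizer ((P : Subgroup G) : Set G))
    (hny : n ∈ Subgroup.centralizer ({y} : Set G)) :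
    n ∈ Subgroup.centralizer ((P : Subgroup G) : Set G) := by
  haveI := hP
  set α := Subgroup.normalizerMonoidHom (P : Subgroup G) ⟨n, hn⟩ with hα
  have hPC : (P : Subgroup G) ≤ Subgroup.centralizer ((P : Subgroup G) : Set G) := fun a ha => by
    rw [Subgroup.mem_centralizer_iff]
    intro b hb
    exact congrArg Subtype.val ((isMulCommutative_of_cyclic hP).is_comm.comm (⟨b, hb⟩ : (P : Subgroup G)) ⟨a, ha⟩)
  obtain ⟨k, hk⟩ := IsPGroup.iff_card.1 P.2
  obtain ⟨u, hu⟩ := MonoidHom.map_cyclic α.toMonoidHom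
  set y' : (P : Subgroup G) := ⟨y, hy⟩
  have hy'1 : y' ≠ 1 := fun h => hy1 (congrArg Subtype.val h)
  have hfix : α y' = y' := by
    apply Subtype.ext
    show n * y * n⁻¹ = y
    rw [Subgroup.mem_centralizer_singleton_iff.1 hny, mul_inv_cancel_right]
  have hpy : p ∣ orderOf y' := by
    obtain ⟨j, -, hj⟩ := (Nat.dvd_prime_pow hp.out).1 (hk ▸ orderOf_dvd_natCard y')
    rw [hj]
    refine dvd_pow_self p fun h0 => hy'1 ?_
    rw [← orderOf_eq_one_iff, hj, h0, pow_zero]
  have hu1 : (p : ℤ) ∣ u - 1 := by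
    refine (Int.natCast_dvd_natCast.2 hpy).trans ?_
    rw [orderOf_dvd_iff_zpow_eq_one, zpow_sub, zpow_one, mul_inv_eq_one]
    exact (hu y').symm.trans hfix
  have hiter : ∀ (j : ℕ) (g : (P : Subgroup G)), (α ^ j) g = g ^ (u ^ j) := by
    intro j
    induction j with
    | zero => intro g; simp
    | succ j ih =>
      intro g
      rw [pow_succ, MulAut.mul_apply, ih, show α g = g ^ u from hu g, ← zpow_mul, pow_succ, mul_comm]
  have hpow : α ^ (p ^ k) = 1 := by
    ext1 g
    rw [hiter, MulAut.one_apply]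
    have h1 : (p : ℤ) ^ (k + 1) ∣ u ^ p ^ k - 1 ^ p ^ k := dvd_sub_pow_of_dvd_sub hu1 k
    rw [one_pow] at h1
    have h2 : (orderOf g : ℤ) ∣ u ^ p ^ k - 1 := by
      refine (Int.natCast_dvd_natCast.2 (hk ▸ orderOf_dvd_natCard g)).trans ?_
      push_cast
      exact (pow_dvd_pow _ (Nat.le_succ k)).trans h1
    have h3 := orderOf_dvd_iff_zpow_eq_one.1 h2
    rwa [zpow_sub, zpow_one, mul_inv_eq_one] at h3
  have hdvd : ¬ p ∣ orderOf α := by
    intro hd
    refine P.not_dvd_index ((hd.trans ?_).trans ((Subgroup.relIndex_dvd_of_le_left _ hPC).trans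
      (Subgroup.relIndex_dvd_index_of_le Subgroup.le_normalizer)))
    have h := Subgroup.orderOf_dvd_natCard (Subgroup.normalizerMonoidHom (P : Subgroup G)).range
      (x := α) ⟨_, rfl⟩
    rwa [← Subgroup.index_ker, Subgroup.normalizerMonoidHom_ker] at h
  have h1 : α = 1 := orderOf_eq_one_iff.1 (Nat.eq_one_of_dvd_coprimes
    (((hp.out.coprime_iff_not_dvd).2 hdvd).pow_left k) (orderOf_dvd_of_pow_eq_one hpow) dvd_rfl)
  have hker : (⟨n, hn⟩ : Subgroup.normalizer ((P : Subgroup G) : Set G)) ∈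
      (Subgroup.normalizerMonoidHom (P : Subgroup G)).ker := h1
  rw [Subgroup.normalizerMonoidHom_ker, Subgroup.mem_subgroupOf] at hker
  exact hker

theorem isFrobSylow_of_free [Fintype G] (P : Sylow p G) (hab : IsMulCommutative (P : Subgroup G))
    (hfree : ∀ y : G, y ∈ (P : Subgroup G) → y ≠ 1 → ∀ n ∈ Subgroup.normalizer ((P : Subgroup G) : Set G),
      n ∈ Subgroup.centralizer ({y} : Set G) → n ∈ Subgroup.centralizer ((P : Subgroup G) : Set G)) :
    IsFrobSylow P ((Subgroup.centralizer ((P : Subgroup G) : Set G)).relIndex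
      (Subgroup.normalizer ((P : Subgroup G) : Set G))) where
  comm := hab
  index := rfl
  free y hy h1 := le_antisymm (fun n hn => hfree y hy h1 n hn.2 hn.1)
    (le_inf (Subgroup.centralizer_le (Set.singleton_subset_iff.2 hy))
      (Subgroup.centralizer_le_normalizer _))

/-- A simple group has no self-centralizing Sylow normalizer. -/
theorem two_le_index [IsSimpleGroup G] (hG : ¬ IsMulCommutative G) (P : Sylow p G)
    (hab : IsMulCommutative (P : Subgroup G)) (hP1 : (P : Subgroup G) ≠ ⊥) :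
    2 ≤ (Subgroup.centralizer ((P : Subgroup G) : Set G)).relIndex
      (Subgroup.normalizer ((P : Subgroup G) : Set G)) := by
  by_contra h
  have h0 : (Subgroup.centralizer ((P : Subgroup G) : Set G)).relIndex
      (Subgroup.normalizer ((P : Subgroup G) : Set G)) ≠ 0 := Subgroup.index_ne_zero_of_finite
  have h1 := Subgroup.relIndex_eq_one.1 (show (Subgroup.centralizer ((P : Subgroup G) : Set G)).relIndex
      (Subgroup.normalizer ((P : Subgroup G) : Set G)) = 1 by omega)
  have hcomp := MonoidHom.ker_transferSylow_isComplement' P h1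
  rcases IsSimpleGroup.eq_bot_or_eq_top_of_normal (MonoidHom.transferSylow P h1).ker inferInstance with
    h' | h'
  · have : (P : Subgroup G) = ⊤ := by
      have h2 := hcomp; rw [h'] at h2
      exact Subgroup.isComplement'_bot_left.1 h2
    refine hG ⟨⟨fun a b => ?_⟩⟩
    exact congrArg Subtype.val (hab.is_comm.comm ⟨a, this ▸ Subgroup.mem_top a⟩
      ⟨b, this ▸ Subgroup.mem_top b⟩)
  · rw [h'] at hcomp
    exact hP1 (Subgroup.isComplement'_top_left.1 hcomp)

theorem exists_conj_mem (P : Sylow p G) {u : G} (hu : orderOf u = p) :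
    ∃ g : G, g⁻¹ * u * g ∈ (P : Subgroup G) := by
  have hup : IsPGroup p (Subgroup.zpowers u) :=
    IsPGroup.of_card (n := 1) (by rw [Nat.card_zpowers, hu, pow_one])
  obtain ⟨Q, hQ⟩ := hup.exists_le_sylow
  obtain ⟨g, hg⟩ := MulAction.exists_smul_eq G P Q
  refine ⟨g, ?_⟩
  have h1 : u ∈ (Q : Subgroup G) := hQ (Subgroup.mem_zpowers u)
  rw [← hg, Sylow.coe_subgroup_smul] at h1
  obtain ⟨d, hd, rfl⟩ := h1
  simpa [mul_assoc] using show d ∈ (P : Subgroup G) from hd

theorem card_centralizer_conj (g y : G) :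
    Nat.card (Subgroup.centralizer ({g * y * g⁻¹} : Set G)) =
      Nat.card (Subgroup.centralizer ({y} : Set G)) := by
  symm
  refine Nat.card_congr ((MulAut.conj g).toEquiv.subtypeEquiv fun x => ?_)
  simp only [Subgroup.mem_centralizer_singleton_iff, MulEquiv.toEquiv_eq_coe, MulEquiv.coe_toEquiv,
    MulAut.conj_apply]
  constructor
  · intro h
    calc g * x * g⁻¹ * (g * y * g⁻¹) = g * (x * y) * g⁻¹ := by group
      _ = g * (y * x) * g⁻¹ := by rw [h]
      _ = g * y * g⁻¹ * (g * x * g⁻¹) := by group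
  · intro h
    calc x * y = g⁻¹ * (g * x * g⁻¹ * (g * y * g⁻¹)) * g := by group
      _ = g⁻¹ * (g * y * g⁻¹ * (g * x * g⁻¹)) * g := by rw [h]
      _ = y * x := by group

theorem card_centralizer_conj_inv (g u : G) :
    Nat.card (Subgroup.centralizer ({g⁻¹ * u * g} : Set G)) =
      Nat.card (Subgroup.centralizer ({u} : Set G)) := by
  simpa using card_centralizer_conj g⁻¹ u

/-- The simple case. -/
theorem false_of_simple_cyclic [IsSimpleGroup G] (hG : ¬ IsMulCommutative G) (P : Sylow p G)
    (hP : IsCyclic ↥(P : Subgroup G)) (hP1 : (P : Subgroup G) ≠ ⊥)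
    (hpair : ∀ x y : G, orderOf x = p → orderOf y = p →
      IsPSolvable p ↥(Subgroup.closure ({x, y} : Set G))) : False := by
  classical
  haveI := Fintype.ofFinite G
  haveI := hP
  have hab : IsMulCommutative (P : Subgroup G) := isMulCommutative_of_cyclic hP
  obtain ⟨M, hM⟩ := CfsgLib.Blocks.exists_isPModular_of_prime hp.out
  haveI : M.IsPrime := CfsgLib.Blocks.isPrime_of_isPModular hM
  set m := (Subgroup.centralizer ((P : Subgroup G) : Set G)).relIndex
    (Subgroup.normalizer ((P : Subgroup G) : Set G)) with hm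
  have hF : IsFrobSylow P m := isFrobSylow_of_free P hab
    fun y hy h1 n hn hny => mem_centralizer_of_cyclic P hP hy h1 hn hny
  have hm2 : 2 ≤ m := two_le_index hG P hab hP1
  obtain ⟨k, hk⟩ := IsPGroup.iff_card.1 P.2
  have hk0 : k ≠ 0 := by
    rintro rfl
    exact hP1 (Subgroup.eq_bot_of_card_eq _ (by rw [hk, pow_zero]))
  obtain ⟨y₀, hy₀⟩ : ∃ y₀ : (P : Subgroup G), orderOf y₀ = p :=
    exists_prime_orderOf_dvd_card' p (hk ▸ dvd_pow_self p hk0)
  have huniq : ∀ y : (P : Subgroup G), y ^ p = 1 → y ∈ Subgroup.zpowers y₀ := by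
    intro y hy
    by_contra hne
    letI : CommGroup (P : Subgroup G) := IsCyclic.commGroup
    have hcard := IsCyclic.card_powMonoidHom_ker (G := (P : Subgroup G)) p
    have hle : Subgroup.zpowers y₀ ≤ (powMonoidHom p : (P : Subgroup G) →* (P : Subgroup G)).ker := by
      rw [Subgroup.zpowers_le, MonoidHom.mem_ker, powMonoidHom_apply]
      exact orderOf_dvd_iff_pow_eq_one.1 (dvd_of_eq hy₀)
    have hlt : (Subgroup.zpowers y₀ : Subgroup (P : Subgroup G)) <
        (powMonoidHom p : (P : Subgroup G) →* (P : Subgroup G)).ker :=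
      lt_of_le_of_ne hle fun e => hne (e.symm ▸ (show y ∈ (powMonoidHom p : (P : Subgroup G) →* (P : Subgroup G)).ker from hy))
    have h1 : Nat.card (powMonoidHom p : (P : Subgroup G) →* (P : Subgroup G)).ker ≤
        Nat.card (Subgroup.zpowers y₀) := by
      rw [hcard, hk, Nat.card_zpowers, hy₀]
      exact Nat.le_of_dvd hp.out.pos (Nat.gcd_dvd_right _ _)
    exact hlt.ne (Subgroup.eq_of_le_of_card_ge hle h1)
  have hΩm : ∀ y : (P : Subgroup G), y ∈ Subgroup.zpowers y₀ ↔ y ^ p = 1 := by
    refine fun y => ⟨?_, huniq y⟩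
    rintro ⟨j, rfl⟩
    show (y₀ ^ j) ^ p = 1
    rw [← zpow_natCast, ← zpow_mul, mul_comm, zpow_mul, zpow_natCast,
      orderOf_dvd_iff_pow_eq_one.1 (dvd_of_eq hy₀), one_zpow]
  set D := Nat.card (Subgroup.centralizer ({(y₀ : G)} : Set G))
  have hD : ∀ u : G, orderOf u = p → Nat.card (Subgroup.centralizer ({u} : Set G)) = D := by
    intro u hu
    obtain ⟨g, hg⟩ := exists_conj_mem P hu
    set y : (P : Subgroup G) := ⟨g⁻¹ * u * g, hg⟩ with hy
    have hyo : orderOf y = p := by
      refine Eq.trans ?_ hu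
      rw [← Subgroup.orderOf_coe]
      show orderOf (g⁻¹ * u * g) = orderOf u
      rw [show g⁻¹ * u * g = MulAut.conj g⁻¹ u by simp]
      exact MulEquiv.orderOf_eq _ _
    have h1 : Subgroup.zpowers y = Subgroup.zpowers y₀ := by
      refine Subgroup.eq_of_le_of_card_ge
        (Subgroup.zpowers_le.2 (huniq y (orderOf_dvd_iff_pow_eq_one.1 (dvd_of_eq hyo)))) ?_
      rw [Nat.card_zpowers, Nat.card_zpowers, hy₀, hyo]
    have h2 : Subgroup.zpowers (y : G) = Subgroup.zpowers (y₀ : G) := by
      have h := congrArg (Subgroup.map (P : Subgroup G).subtype) h1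
      rwa [MonoidHom.map_zpowers, MonoidHom.map_zpowers] at h
    have h3 : ∀ a b : G, Subgroup.zpowers a = Subgroup.zpowers b →
        Subgroup.centralizer ({a} : Set G) ≤ Subgroup.centralizer ({b} : Set G) := by
      intro a b e c hc
      rw [Subgroup.mem_centralizer_singleton_iff] at hc ⊢
      obtain ⟨j, hj⟩ := (e ▸ Subgroup.mem_zpowers b : b ∈ Subgroup.zpowers a)
      rw [← hj]
      exact ((show Commute c a from hc).zpow_right j).eq
    rw [← card_centralizer_conj_inv g u, show g⁻¹ * u * g = (y : G) from rfl,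
      le_antisymm (h3 _ _ h2) (h3 _ _ h2.symm)]
  have hΩcard : Nat.card (Subgroup.zpowers y₀) = p := by rw [Nat.card_zpowers, hy₀]
  have hmp : m ≤ p - 1 := by
    have hne : y₀ ≠ 1 := fun h => by rw [h, orderOf_one] at hy₀; exact hp.out.one_lt.ne hy₀
    haveI := Fintype.ofFinite (Subgroup.zpowers y₀)
    rw [← card_autP hF, Nat.card_eq_fintype_card, ← Finset.card_univ,
      ← Finset.card_image_of_injective Finset.univ (f := fun α : ↥(autP P) =>
        (α : MulAut (P : Subgroup G)) y₀) (fun α β h => Subtype.ext (eq_of_autP_apply hF α.2 β.2 hne h))]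
    have hsub : (Finset.univ : Finset ↥(autP P)).image (fun α : ↥(autP P) =>
        (α : MulAut (P : Subgroup G)) y₀) ⊆
        ((Finset.univ : Finset (Subgroup.zpowers y₀)).map ⟨Subtype.val, Subtype.val_injective⟩).erase 1 := by
      intro z hz
      obtain ⟨α, -, rfl⟩ := Finset.mem_image.1 hz
      refine Finset.mem_erase.2 ⟨fun e => hne ((MulEquiv.map_eq_one_iff _).1 e),
        Finset.mem_map.2 ⟨⟨_, huniq _ ?_⟩, Finset.mem_univ _, rfl⟩⟩
      exact (map_pow (α : MulAut (P : Subgroup G)).toMonoidHom y₀ p).symm.trans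
        (by rw [orderOf_dvd_iff_pow_eq_one.1 (dvd_of_eq hy₀), map_one])
    refine (Finset.card_le_card hsub).trans ?_
    have h1mem : (1 : (P : Subgroup G)) ∈ (Finset.univ : Finset (Subgroup.zpowers y₀)).map
        ⟨Subtype.val, Subtype.val_injective⟩ :=
      Finset.mem_map.2 ⟨(1 : Subgroup.zpowers y₀), Finset.mem_univ _, rfl⟩
    rw [Finset.card_erase_of_mem h1mem, Finset.card_map,
      Finset.card_univ, ← Nat.card_eq_fintype_card, hΩcard]
  have hp2 : p ≠ 2 := by omega
  have hpk : p ≤ Nat.card (P : Subgroup G) := by rw [hk]; exact Nat.le_self_pow hk0 p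
  rcases eq_or_ne (m + 1) (Nat.card (P : Subgroup G)) with he | he
  · exact false_rational hG hF hM hp2 he (by omega) hD hpair
  · exact false_exceptional hG hF hM hp2 (by omega) (by omega) hD hpair _ hΩcard hΩm

theorem pairs_map {H : Type*} [Group H] (f : H →* G) (hf : Function.Injective f)
    (hpair : ∀ x y : G, orderOf x = p → orderOf y = p →
      IsPSolvable p ↥(Subgroup.closure ({x, y} : Set G))) (x y : H) (hx : orderOf x = p)
    (hy : orderOf y = p) : IsPSolvable p ↥(Subgroup.closure ({x, y} : Set H)) := by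
  have h := hpair (f x) (f y) (by rw [orderOf_injective f hf, hx]) (by rw [orderOf_injective f hf, hy])
  rw [← Set.image_pair, ← MonoidHom.map_closure] at h
  exact CfsgLib.PSolvable.isPSolvable_of_equiv
    (Subgroup.equivMapOfInjective _ f hf).symm h

theorem pairs_quotient (N : Subgroup G) [N.Normal] (hN : ¬ p ∣ Nat.card N)
    (hpair : ∀ x y : G, orderOf x = p → orderOf y = p →
      IsPSolvable p ↥(Subgroup.closure ({x, y} : Set G))) (x y : G ⧸ N) (hx : orderOf x = p)
    (hy : orderOf y = p) : IsPSolvable p ↥(Subgroup.closure ({x, y} : Set (G ⧸ N))) := by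
  have lift : ∀ z : G ⧸ N, orderOf z = p → ∃ w : G, orderOf w = p ∧ QuotientGroup.mk' N w = z := by
    intro z hz
    set H := (Subgroup.zpowers z).comap (QuotientGroup.mk' N)
    have hdvd : p ∣ Nat.card H := by
      have h1 : Subgroup.map (QuotientGroup.mk' N) H = Subgroup.zpowers z :=
        Subgroup.map_comap_eq_self_of_surjective (QuotientGroup.mk'_surjective N) _
      have h2 : Nat.card (Subgroup.zpowers z) ∣ Nat.card H := h1 ▸ Subgroup.card_map_dvd _ _
      rwa [Nat.card_zpowers, hz] at h2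
    obtain ⟨w, hw⟩ := exists_prime_orderOf_dvd_card' p hdvd
    have hwz : QuotientGroup.mk' N (w : G) ∈ Subgroup.zpowers z := w.2
    have hw' : orderOf (w : G) = p := (Subgroup.orderOf_coe w).trans hw
    have hne : QuotientGroup.mk' N (w : G) ≠ 1 := by
      intro h
      exact hN (hw' ▸ Subgroup.orderOf_dvd_natCard _ ((QuotientGroup.eq_one_iff _).1 h))
    have hgen : Subgroup.zpowers (QuotientGroup.mk' N (w : G)) = Subgroup.zpowers z := by
      refine Subgroup.eq_of_le_of_card_ge (Subgroup.zpowers_le.2 hwz) ?_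
      rw [Nat.card_zpowers, Nat.card_zpowers, hz, orderOf_eq_prime (by
        rw [← map_pow, orderOf_dvd_iff_pow_eq_one.1 (dvd_of_eq hw'), map_one]) hne]
    obtain ⟨j, hj⟩ := (hgen.symm ▸ Subgroup.mem_zpowers z :
      z ∈ Subgroup.zpowers (QuotientGroup.mk' N (w : G)))
    refine ⟨(w : G) ^ j, orderOf_eq_prime ?_ ?_, by rw [map_zpow]; exact hj⟩
    · rw [← zpow_natCast, ← zpow_mul, mul_comm, zpow_mul, zpow_natCast,
        orderOf_dvd_iff_pow_eq_one.1 (dvd_of_eq hw'), one_zpow]
    · intro h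
      have : z = 1 := by rw [← hj]; show QuotientGroup.mk' N (w : G) ^ j = 1; rw [← map_zpow, h, map_one]
      rw [this, orderOf_one] at hz
      exact hp.out.one_lt.ne hz
  obtain ⟨a, ha, rfl⟩ := lift x hx
  obtain ⟨b, hb, rfl⟩ := lift y hy
  rw [← Set.image_pair, ← MonoidHom.map_closure]
  exact CfsgLib.PSolvable.isPSolvable_of_surjective (hpair a b ha hb)
    (f := (QuotientGroup.mk' N).subgroupMap _) ((QuotientGroup.mk' N).subgroupMap_surjective _)

universe u

/-- Cyclic Sylow subgroups: `p`-solvability is detected by pairs. -/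
theorem isPSolvable_of_pairs {G : Type u} [Group G] [Finite G] (P : Sylow p G)
    (hP : IsCyclic ↥(P : Subgroup G))
    (hpair : ∀ x y : G, orderOf x = p → orderOf y = p →
      IsPSolvable p ↥(Subgroup.closure ({x, y} : Set G))) : IsPSolvable p G := by
  suffices key : ∀ (n : ℕ) (G : Type u) [Group G] [Finite G] (P : Sylow p G),
      Nat.card G = n → IsCyclic ↥(P : Subgroup G) →
      (∀ x y : G, orderOf x = p → orderOf y = p →
        IsPSolvable p ↥(Subgroup.closure ({x, y} : Set G))) → IsPSolvable p G from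
    key _ G P rfl hP hpair
  intro n
  induction n using Nat.strong_induction_on with
  | _ n ih =>
  intro G _ _ P hn hP hpair
  by_cases hpG : p ∣ Nat.card G
  swap
  · exact CfsgLib.PSolvable.isPSolvable_of_not_dvd hpG
  haveI := hP
  by_cases hN : pPrimeCore p G = ⊥
  swap
  · set N := pPrimeCore p G with hNdef
    have hNp : ¬ p ∣ Nat.card N :=
      hp.out.coprime_iff_not_dvd.1 (CfsgLib.Cores.card_pPrimeCore_coprime (G := G) p).symm
    have hlt : Nat.card (G ⧸ N) < n := by
      have h := Subgroup.card_eq_card_quotient_mul_card_subgroup N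
      have h1 : 1 < Nat.card N := N.one_lt_card_iff_ne_bot.2 hN
      have h2 : 0 < Nat.card (G ⧸ N) := Nat.card_pos
      nlinarith
    have hcyc : IsCyclic ↥((P.mapSurjective (QuotientGroup.mk'_surjective N) : Sylow p (G ⧸ N)) :
        Subgroup (G ⧸ N)) :=
      isCyclic_of_surjective ((QuotientGroup.mk' N).subgroupMap (P : Subgroup G))
        ((QuotientGroup.mk' N).subgroupMap_surjective _)
    exact CfsgLib.PSolvable.isPSolvable_of_step N
      (Or.inr (CfsgLib.Cores.card_pPrimeCore_coprime (G := G) p))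
      (ih _ hlt (G ⧸ N) _ rfl hcyc (pairs_quotient N hNp hpair))
  have hP1 : (P : Subgroup G) ≠ ⊥ := P.ne_bot_of_dvd_card hpG
  haveI : Nontrivial G :=
    Finite.one_lt_card_iff_nontrivial.1 (lt_of_lt_of_le hp.out.one_lt (Nat.le_of_dvd Nat.card_pos hpG))
  by_cases hs : IsSimpleGroup G
  · by_cases hab : IsMulCommutative G
    · haveI : Group.IsSolvable G := Group.isSolvable_of_comm fun a b => hab.is_comm.comm a b
      exact CfsgLib.PSolvable.isPSolvable_of_isSolvable
    · exact (false_of_simple_cyclic hab P hP hP1 hpair).elim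
  obtain ⟨N, hNn, hNb, hNt⟩ : ∃ N : Subgroup G, N.Normal ∧ N ≠ ⊥ ∧ N ≠ ⊤ := by
    by_contra h
    push Not at h
    exact hs { eq_bot_or_eq_top_of_normal := fun H hH => or_iff_not_imp_left.2 (h H hH) }
  haveI := hNn
  -- a normal subgroup of order `p`
  have hNs : IsPSolvable p N := by
    obtain ⟨Q⟩ : Nonempty (Sylow p N) := inferInstance
    refine ih (Nat.card N) ?_ N Q rfl ?_ (pairs_map N.subtype N.subtype_injective hpair)
    · rw [← hn]
      exact lt_of_le_of_ne (Subgroup.card_le_card_group N) fun h => hNt (Subgroup.eq_top_of_card_eq N h)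
    · obtain ⟨R, hR⟩ := (Q.2.map N.subtype).exists_le_sylow
      haveI : IsCyclic ↥(R : Subgroup G) :=
        isCyclic_of_surjective (Sylow.equiv P R).toMonoidHom (Sylow.equiv P R).surjective
      exact isCyclic_of_injective ((Subgroup.inclusion hR).comp
        (Subgroup.equivMapOfInjective (Q : Subgroup N) N.subtype N.subtype_injective).toMonoidHom)
        ((Subgroup.inclusion_injective hR).comp (MulEquiv.injective _))
  haveI : Nontrivial N := (Subgroup.nontrivial_iff_ne_bot N).2 hNb
  have hR : pCore p G ≠ ⊥ := by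
    rcases CfsgLib.PSolvable.core_ne_bot hNs with h | h
    · intro h0
      have hle := CfsgLib.Cores.map_subtype_pCore_le (p := p) (Subgroup.Normal.isSubnormal hNn)
      rw [h0, le_bot_iff, Subgroup.map_eq_bot_iff_of_injective _ N.subtype_injective] at hle
      exact h hle
    · intro _
      have hle := CfsgLib.Cores.map_subtype_pPrimeCore_le (p := p) (Subgroup.Normal.isSubnormal hNn)
      rw [hN, le_bot_iff, Subgroup.map_eq_bot_iff_of_injective _ N.subtype_injective] at hle
      exact h hle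
  have hRP : pCore p G ≤ P := CfsgLib.Cores.pCore_le_sylow P
  haveI : IsCyclic ↥(pCore p G) :=
    isCyclic_of_injective (Subgroup.inclusion hRP) (Subgroup.inclusion_injective hRP)
  obtain ⟨k, hk⟩ := IsPGroup.iff_card.1 (CfsgLib.Cores.isPGroup_pCore p G)
  have hk0 : k ≠ 0 := by
    rintro rfl
    exact hR (Subgroup.eq_bot_of_card_eq _ (by rw [hk, pow_zero]))
  obtain ⟨z, hz⟩ := exists_prime_orderOf_dvd_card' (G := ↥(pCore p G)) p (hk ▸ dvd_pow_self p hk0)
  set Ω := Subgroup.zpowers (z : G)
  have hzo : orderOf (z : G) = p := (Subgroup.orderOf_coe z).trans hz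
  have hΩn : Ω.Normal := by
    refine ⟨fun x hx g => ?_⟩
    obtain ⟨j, rfl⟩ := hx
    have hc : ∀ w : G, w ∈ pCore p G → w ^ p = 1 → w ∈ Ω := by
      intro w hw hwp
      letI : CommGroup ↥(pCore p G) := IsCyclic.commGroup
      have hcard := IsCyclic.card_powMonoidHom_ker (G := ↥(pCore p G)) p
      have hle : Subgroup.zpowers z ≤ (powMonoidHom p : ↥(pCore p G) →* ↥(pCore p G)).ker := by
        rw [Subgroup.zpowers_le, MonoidHom.mem_ker, powMonoidHom_apply]
        exact orderOf_dvd_iff_pow_eq_one.1 (dvd_of_eq hz)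
      have heq := Subgroup.eq_of_le_of_card_ge hle (by
        rw [hcard, hk, Nat.card_zpowers, hz]
        exact Nat.le_of_dvd hp.out.pos (Nat.gcd_dvd_right _ _))
      have hmem : (⟨w, hw⟩ : ↥(pCore p G)) ∈ Subgroup.zpowers z := heq ▸ Subtype.ext hwp
      obtain ⟨i, hi⟩ := hmem
      exact ⟨i, congrArg Subtype.val hi⟩
    refine hc _ ?_ ?_
    · exact Subgroup.Normal.conj_mem inferInstance _ ((pCore p G).zpow_mem z.2 j) g
    · rw [conj_pow]
      show g * ((z : G) ^ j) ^ p * g⁻¹ = 1
      rw [← zpow_natCast, ← zpow_mul, mul_comm, zpow_mul, zpow_natCast,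
        orderOf_dvd_iff_pow_eq_one.1 (dvd_of_eq hzo), one_zpow, mul_one, mul_inv_cancel]
  haveI := hΩn
  set C := Subgroup.centralizer (Ω : Set G)
  haveI hCn : C.Normal := inferInstance
  have hzP : (z : G) ∈ (P : Subgroup G) := hRP z.2
  have hPC : (P : Subgroup G) ≤ C := fun v hv => by
    rw [Subgroup.mem_centralizer_iff]
    intro w hw
    have hwP : w ∈ (P : Subgroup G) := (Subgroup.zpowers_le.2 hzP) hw
    exact congrArg Subtype.val ((isMulCommutative_of_cyclic hP).is_comm.comm (⟨w, hwP⟩ : (P : Subgroup G)) ⟨v, hv⟩)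
  set V := P.subtype hPC
  have hnc : Subgroup.normalizer (V : Set C) ≤ Subgroup.centralizer (V : Set C) := by
    intro c hc
    have hcN : (c : G) ∈ Subgroup.normalizer ((P : Subgroup G) : Set G) := by
      rw [Subgroup.mem_normalizer_iff]
      intro w
      constructor
      · intro hw
        exact (Subgroup.mem_normalizer_iff.1 hc ⟨w, hPC hw⟩).1 hw
      · intro hw
        have hw' : w ∈ C := by
          have := mul_mem (mul_mem (inv_mem c.2) (hPC hw)) c.2
          rwa [show (c : G)⁻¹ * ((c : G) * w * (c : G)⁻¹) * c = w by group] at this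
        exact (Subgroup.mem_normalizer_iff.1 hc ⟨w, hw'⟩).2 hw
    have hcz : (c : G) ∈ Subgroup.centralizer ({(z : G)} : Set G) :=
      Subgroup.mem_centralizer_singleton_iff.2
        ((Subgroup.mem_centralizer_iff.1 c.2 _ (Subgroup.mem_zpowers _)).symm)
    have h := mem_centralizer_of_cyclic P hP hzP (fun h => by
      rw [h, orderOf_one] at hzo; exact hp.out.one_lt.ne hzo) hcN hcz
    rw [Subgroup.mem_centralizer_iff]
    exact fun a ha => Subtype.ext (Subgroup.mem_centralizer_iff.1 h a ha)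
  have hcomp := MonoidHom.ker_transferSylow_isComplement' V hnc
  have hK : (MonoidHom.transferSylow V hnc).ker = ⊥ := by
    have hKp : (Nat.card (MonoidHom.transferSylow V hnc).ker).Coprime p := by
      rw [← hcomp.index_eq_card]
      exact ((hp.out.coprime_iff_not_dvd).2 V.not_dvd_index).symm
    have h1 := CfsgLib.Cores.le_pPrimeCore hKp
    have h2 := CfsgLib.Cores.map_subtype_pPrimeCore_le (p := p) (Subgroup.Normal.isSubnormal hCn)
    rw [hN, le_bot_iff, Subgroup.map_eq_bot_iff_of_injective _ C.subtype_injective] at h2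
    exact le_bot_iff.1 (h2 ▸ h1)
  rw [hK] at hcomp
  have hVtop : (V : Subgroup C) = ⊤ := Subgroup.isComplement'_bot_left.1 hcomp
  have hCp : IsPGroup p C := by
    have h := V.2
    rw [hVtop] at h
    exact h.of_equiv Subgroup.topEquiv
  refine CfsgLib.PSolvable.isPSolvable_of_extension C (CfsgLib.PSolvable.isPSolvable_of_isPGroup hCp) ?_
  haveI : Group.IsSolvable (G ⧸ C) := by
    let φ : G →* MulAut Ω := MulAut.conjNormal
    have hker : φ.ker ≤ C := by
      intro g hg
      rw [Subgroup.mem_centralizer_iff]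
      intro w hw
      have h := congrArg Subtype.val (DFunLike.congr_fun (MonoidHom.mem_ker.1 hg) ⟨w, hw⟩)
      simp only [φ, MulAut.conjNormal_apply, MulAut.one_apply] at h
      rw [mul_inv_eq_iff_eq_mul] at h
      exact h.symm
    haveI : IsCyclic Ω := Subgroup.isCyclic_zpowers _
    have hcomm : ∀ a b : G, (⁅a, b⁆ : G) ∈ C := by
      intro a b
      apply hker
      rw [MonoidHom.mem_ker, map_commutatorElement, commutatorElement_eq_one_iff_mul_comm]
      ext w
      obtain ⟨ma, hma⟩ := MonoidHom.map_cyclic (φ a).toMonoidHom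
      obtain ⟨mb, hmb⟩ := MonoidHom.map_cyclic (φ b).toMonoidHom
      simp only [MulEquiv.coe_toMonoidHom] at hma hmb
      rw [MulAut.mul_apply, MulAut.mul_apply, hmb w, hma w, map_zpow, map_zpow, hma w, hmb w,
        ← zpow_mul, ← zpow_mul, mul_comm]
    refine Group.isSolvable_of_comm fun a b => ?_
    induction a using QuotientGroup.induction_on with | _ a =>
    induction b using QuotientGroup.induction_on with | _ b =>
    rw [← commutatorElement_eq_one_iff_mul_comm]
    show (QuotientGroup.mk' C) ⁅a, b⁆ = 1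
    exact (QuotientGroup.eq_one_iff _).2 (hcomm a b)
  exact CfsgLib.PSolvable.isPSolvable_of_isSolvable

end CfsgLib.PSolvablePairs
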